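import Cfsg.Agent.U3.Plane

/-! The minimal index of a proper subgroup of `SU₃(q)`. -/

set_option autoImplicit false

open Module MulAction

namespace Cfsg.Agent.U3

open Cfsg.Agent.Polar Cfsg.Agent.Polar.PQ Cfsg.Agent.Forms Cfsg.Agent.Forms.RegCl
open scoped Pointwise

variable {F : Type*} [Field F] [Fintype F] {q : ℕ} {hF : Fintype.card F = q ^ 2}
variable {V : Type*} [AddCommGroup V] [Module F V] {P : PQ (uFP hF) V}

local notation "σ" => frobq hF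

theorem num_five {n s : ℕ} (hn : 3 ≤ n) (h : s = 1 ∨ ∃ a b, a ∣ n * s ∧ b ∣ n * s ∧
    2 * a ≤ n * s ∧ 2 * b ≤ n * s ∧ a + b + n = n * s + 2) : s ≤ 5 := by
  rcases h with rfl | ⟨a, b, ha, hb, ha', hb', h⟩
  · omega
  have key : ∀ a, a ∣ n * s → 2 * a ≤ n * s → 2 * a = n * s ∨ 3 * a ≤ n * s := by
    rintro a ⟨i, hi⟩ h
    rw [hi] at h ⊢
    rcases Nat.lt_trichotomy i 2 with h1 | rfl | h1
    · have : a * i ≤ a * 1 := Nat.mul_le_mul_left _ (by omega)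
      omega
    · omega
    · have : a * 3 ≤ a * i := Nat.mul_le_mul_left _ h1
      omega
  by_contra h1
  have : n * 6 ≤ n * s := Nat.mul_le_mul_left _ (by omega)
  have := key a ha ha'
  have := key b hb hb'
  omega

theorem num_three {q τ : ℕ} (hq : 3 ≤ q) (h5 : q ≠ 5) (ho : q % 2 = 1) (h1 : q ^ 2 - 1 ≤ τ)
    (h2 : τ ≤ (q + 1) * 5) : q = 3 := by
  have h11 : q ≤ 6 := by_contra fun h => by
    have := Nat.mul_le_mul_left q (show 7 ≤ q by omega)
    rw [pow_two] at h1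
    omega
  omega

set_option synthInstance.maxSize 4000 in
set_option synthInstance.maxHeartbeats 200000 in
theorem num_odd {q w τ k s : ℕ} (hq : 3 ≤ q) (h5 : q ≠ 5) (ho : q % 2 = 1) (hw : w ≤ q)
    (hw' : w ∣ q ^ 2) (h1 : τ ∣ 3 * (q - 1)) (h2 : τ ∣ q ^ 2 - 1) (h3 : τ = k * s) (h4 : k ∣ 6)
    (h6 : 2 ∣ k) (hA : q ^ 2 - 1 ≤ w * τ) (h : s = 1 ∨ ∃ a b, a ∣ (q + 1) * s ∧ b ∣ (q + 1) * s ∧
      2 * a ≤ (q + 1) * s ∧ 2 * b ≤ (q + 1) * s ∧ a + b + (q + 1) = (q + 1) * s + 2) :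
    q = 11 ∧ w = 11 ∧ τ = 30 ∧ k = 6 := by
  have hs := num_five (by omega) h
  have hk := Nat.le_of_dvd (by norm_num) h4
  have h7 : τ ≤ 6 * 5 := h3 ▸ Nat.mul_le_mul hk hs
  have h8 : q ≤ τ := by_contra fun h => by
    have : w * τ ≤ q * (q - 1) := Nat.mul_le_mul hw (by omega)
    obtain ⟨m, rfl⟩ : ∃ m, q = m + 1 := ⟨q - 1, by omega⟩
    rw [Nat.add_sub_cancel] at this
    have : (m + 1) ^ 2 = (m + 1) * m + m + 1 := by ring
    omega
  have key : ∀ q < 31, ∀ τ < 31, 3 ≤ q ∧ q ≠ 5 ∧ q % 2 = 1 ∧ 3 * (q - 1) % τ = 0 ∧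
      (q ^ 2 - 1) % τ = 0 ∧ q ≤ τ → q = 11 ∧ (τ = 15 ∨ τ = 30) ∨ q = 17 ∧ τ = 24 := by
    decide +kernel
  rcases key q (by omega) τ (by omega) ⟨hq, h5, ho, Nat.mod_eq_zero_of_dvd h1,
    Nat.mod_eq_zero_of_dvd h2, h8⟩ with ⟨rfl, rfl | rfl⟩ | ⟨rfl, rfl⟩
  · exact absurd (h6.trans ⟨s, h3⟩) (by norm_num)
  · refine ⟨rfl, ?_, rfl, by interval_cases k <;> omega⟩
    interval_cases w <;> omega
  · obtain rfl : s = 4 := by interval_cases k <;> omega
    obtain ⟨a, b, ha, hb, ha', hb', h⟩ := h.resolve_left (by norm_num)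
    have : ∀ a < 37, ∀ b < 37, 72 % a = 0 → 72 % b = 0 → a + b ≠ 56 := by decide +kernel
    exact absurd (by omega) (this a (by omega) b (by omega) (Nat.mod_eq_zero_of_dvd ha)
      (Nat.mod_eq_zero_of_dvd hb))

variable [Finite V] [FiniteDimensional F V] {H : Subgroup P.Iso}

theorem Hy.not_eleven (h : Hy P H) (hq : q = 11) (hc : Nat.card H = 37 * 11880) {z : P.Iso}
    (hz : z ∈ H) (hz3 : orderOf z = 3) (hzc : ∀ g, g * z = z * g) : False := by
  subst hq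
  have : Fact (Nat.Prime 37) := ⟨by norm_num⟩
  have : Fact (Nat.Prime 11) := ⟨by norm_num⟩
  obtain ⟨S, x, k, n, h1, h2, h3, h4, h5, h6⟩ := syl_odd h.nd h.fin (r := 37) (by norm_num)
    (by norm_num) h.le hc (by norm_num)
  have key : ∀ k < 1486, 1485 % k = 0 → 11880 / k % 37 = 1 → k = 3 := by decide +kernel
  have hk0 : 0 < k := by omega
  have hk1 : k ∣ 1485 := (((Nat.Prime.coprime_iff_not_dvd Nat.prime_two).2 h6).symm.pow_right
    3).dvd_of_dvd_mul_left ⟨n, h3.symm⟩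
  obtain rfl := key k (Nat.lt_succ_of_le (Nat.le_of_dvd (by norm_num) hk1))
    (Nat.mod_eq_zero_of_dvd hk1) (by rw [← h3, Nat.mul_div_cancel_left _ hk0, h4])
  have h7 : x ∈ Subgroup.centralizer (S : Set H) := fun y hy => by
    obtain ⟨m, rfl⟩ : y ∈ Subgroup.zpowers x := h1 ▸ hy
    exact ((Commute.refl x).zpow_left m).eq
  have h8 : (⟨z, hz⟩ : H) ∈ Subgroup.centralizer (S : Set H) := fun y _ => Subtype.ext (hzc y)
  have h9 := Nat.Coprime.mul_dvd_of_dvd_of_dvd (by norm_num : Nat.Coprime 37 3)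
    (h2 ▸ Subgroup.orderOf_dvd_natCard _ h7)
    (hz3 ▸ Subgroup.orderOf_mk z hz ▸ Subgroup.orderOf_dvd_natCard _ h8)
  have h10 := dvd_card_normalizer (by norm_num : 37 ≠ 11) S (Subgroup.eq_of_le_of_card_ge
    (Subgroup.centralizer_le_normalizer _) (h5 ▸ Nat.le_of_dvd Nat.card_pos h9)).ge
  obtain ⟨Q, u, -, -, g1, g2, -⟩ := exists_syl (G := H) (r := 11) (M := 39960)
    (hc.trans (by norm_num)) (by norm_num)
  obtain ⟨g3, g4⟩ := orderOf_eq_prime_iff.1 g2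
  obtain ⟨y, hy⟩ := exists_prime_orderOf_dvd_card' (G := Subgroup.normalizer (Q : Set H)) 37 (by
    have := h10 Q
    rwa [h1, Nat.card_zpowers, h2] at this)
  obtain ⟨g5, g6⟩ := orderOf_eq_prime_iff.1 hy
  have g7 : (u : P.Iso) ^ 11 = 1 := congrArg Subtype.val g3
  obtain ⟨_, ⟨e, he, rfl⟩, g8⟩ := exists_fix g7 (smul_mem_pts (act_mem_sing0 (u : P.Iso)))
    (by rw [card_pts h.nd h.fin]; norm_num)
  have g9 := mem_U_of_pst h.nd h.fin (by norm_num) (h.le u.2) g7 he.2.2 he.2.1 (smul_pt_eq_iff.1 g8)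
  have g10 : y.1 * u * y.1⁻¹ ∈ (Q : Subgroup H) :=
    (Subgroup.mem_set_normalizer_iff.1 y.2 u).1 (g1 ▸ Subgroup.mem_zpowers u : u ∈ (Q : Subgroup H))
  rw [g1] at g10
  obtain ⟨m, hm⟩ := g10
  exact no_fix_sing h.nd h.fin (r := 37) (by norm_num) (by norm_num) (h.le y.1.2)
    (congrArg (fun y => y.1.1) g5) (fun h => g6 (Subtype.ext (Subtype.ext h))) he.2.2 he.2.1
    (pst_of_commute h.nd h.fin he.2.2 he.2.1 g9 (fun h => g4 (Subtype.ext h)) he.2.2 he.2.1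
      (zpow_mem g9 m) (congrArg Subtype.val hm).symm)

theorem Hy.odd_D0 (h : Hy P H) (h2 : (2 : F) ≠ 0) (hq : 3 ≤ q) (h5 : q ≠ 5)
    (hD : ∀ x (hx : P.Sing x), x ≠ 0 → P.Dv H hx = ⊥)
    (hA : ∀ e, P.Sing e → e ≠ 0 → q ^ 2 - 1 ≤ Nat.card (H ⊓ P.pst e : Subgroup P.Iso)) : False := by
  have hodd := Nat.not_even_iff_odd.1 (mt (even_q_iff hF).1 h2)
  have : Fact (Nat.Prime 2) := ⟨Nat.prime_two⟩
  obtain ⟨e, he0, he⟩ := u_exists_sing P (h.fin ▸ by norm_num)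
  obtain ⟨j, hj⟩ := exists_prime_orderOf_dvd_card' (G := H) 2
    (h.card_eq he he0 ▸ (even_iff_two_dvd.1 hodd.pow.add_one).mul_right _)
  obtain ⟨hj1, hj2⟩ := orderOf_eq_prime_iff.1 hj
  clear he he0
  obtain ⟨e, v, f, T, jv, je, jf⟩ := exists_invol_frame h.nd h.fin h2 (h.le j.2)
    (by rw [← pow_two]; exact congrArg Subtype.val hj1) fun h => hj2 (Subtype.ext h)
  have he := T.hyp.left
  have h0 := T.hyp.left_ne_zero
  let K : Subgroup P.Iso := H ⊓ P.pst v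
  let X : SubMulAction K (Submodule F V) := ⟨pts F {x | x ≠ 0 ∧ P.B x v = 0},
    fun g _ hp => smul_mem_pts (g := g.1) (S := {x | x ≠ 0 ∧ P.B x v = 0})
      (fun x hx => ⟨act_ne_zero _ hx.1, act_mem_perp g.2.2 hx.2⟩) _ hp⟩
  let x0 : X := ⟨F ∙ e, e, ⟨h0, B_swap_zero T.ve⟩, rfl⟩
  have hK : ∀ L ≤ K, Nat.card (L ⊓ P.pst e : Subgroup P.Iso) = Nat.card (TT L e) := fun L hL => by
    rw [card_pst T (hL.trans (inf_le_left.trans h.le)), show L ⊓ P.U e = ⊥ from eq_bot_iff.2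
      fun u hu => eq_one_of_D T (hD _ _ h0) (hL hu.1).1 hu.2 (hL hu.1).2, Subgroup.card_bot, one_mul]
  obtain ⟨s, hs, hs'⟩ := rh_count (X := X) ((SC P e f).subgroupOf K) (by
      rintro g ⟨l, hl, h3, h4⟩ ⟨_, x, hx, rfl⟩
      obtain ⟨a, b, rfl⟩ := fr_perp_v T hx.2
      refine Subtype.ext (smul_pt_eq_iff.2 ⟨l, hl, ?_⟩)
      rw [smul_add, act_smul, act_smul]
      exact (congrArg₂ (a • · + b • ·) h3 h4).trans (by module))
    (fun g hg => by
      obtain ⟨y, z, hy, hz, hyz, h3⟩ := h.two_fix T h2 hD g.2.1 g.2.2 hg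
      rw [Nat.card_coe_set_eq, ← Set.ncard_image_of_injective _ Subtype.val_injective,
        ← Set.ncard_pair hyz]
      congr 1
      ext p
      constructor
      · rintro ⟨⟨_, x, hx, rfl⟩, h4, rfl⟩
        exact (h3 x hx.1 hx.2).1 (smul_pt_eq_iff.1 (congrArg Subtype.val h4))
      · rintro (rfl | rfl)
        · exact ⟨⟨_, mem_pts hy⟩, Subtype.ext (smul_pt_eq_iff.2 ((h3 y hy.1 hy.2).2 (Or.inl rfl))),
            rfl⟩
        · exact ⟨⟨_, mem_pts hz⟩, Subtype.ext (smul_pt_eq_iff.2 ((h3 z hz.1 hz.2).2 (Or.inr rfl))),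
            rfl⟩)
    x0 (n := q + 1) (by
      rw [← Set.ncard_image_of_injective _ Subtype.val_injective, SubMulAction.val_image_orbit,
        ← card_pts_line h.nd h.fin T.vv]
      congr 1
      ext p
      constructor
      · rintro ⟨g, rfl⟩
        exact ⟨g.1 • e, ⟨mem_perp_singleton.2 (act_mem_perp g.2.2 (B_swap_zero T.ve)),
          act_ne_zero _ h0, he.act _⟩, (smul_pt _ _).symm⟩
      · rintro ⟨x, hx, rfl⟩
        obtain ⟨g, hg, t, ht0, ht⟩ := h.tr e x he h0 hx.2.2 hx.2.1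
        obtain ⟨u, hu, hu', h3⟩ := adj T h2 h.le j.2 jv je jf (inv_mem hg) (by
          rw [B_act_left, inv_inv, ht, B_smul_right, B_swap_zero (mem_perp_singleton.1 hx.1),
            mul_zero])
        refine ⟨⟨_, Subgroup.mem_inf.2 ⟨inv_mem (mul_mem hu (inv_mem hg)), inv_mem h3⟩⟩,
          (smul_pt (u * g⁻¹)⁻¹ e).trans ?_⟩
        exact span_eq_iff'.2 ⟨t, ht0, by rw [mul_inv_rev, inv_inv, mul_smul, (inv_mem hu').1, ht]⟩)
    (by omega)
  have h3 : TT K e = TT H e := le_antisymm (fun t ⟨g, hg, ht⟩ => ⟨g, hg.1, ht⟩) (by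
    rintro t ⟨g, hg, ht⟩
    obtain ⟨u, hu, hu', h3⟩ := adj T h2 h.le j.2 jv je jf hg
      (act_mem_perp (mem_pst_of_eq h0 ht) T.ve)
    exact ⟨u * g, ⟨mul_mem hu hg, h3⟩, by rw [mul_smul, ht, act_smul, hu'.1]⟩)
  have h4 : Nat.card ((SC P e f).subgroupOf K) = Nat.card (TT (SC P e f ⊓ K) e) := by
    rw [← hK _ inf_le_right, inf_of_le_left (fun g ⟨⟨l, hl, h, _⟩, _⟩ => ⟨l, hl, h⟩),
      ← Subgroup.inf_subgroupOf_right,
      Nat.card_congr (Subgroup.subgroupOfEquivOfLe inf_le_right).toEquiv]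
  rw [SubMulAction.stabilizer_of_subMul, card_stab, hK K le_rfl, h3, h4] at hs
  have h6 : ∀ g ∈ SC P e f ⊓ K, ∀ t : F, t ≠ 0 → g • e = t • e → t ^ (q + 1) = 1 := by
    rintro g ⟨⟨l, hl, h6, h7⟩, -⟩ t - ht
    rw [pow_succ']
    exact T.hyp.smul_right_eq ht (by rw [h7, smul_left_injective F h0 (h6.symm.trans ht)])
  have h7 := h.card_eq he h0
  have h8 := hA e he h0
  have h9 := card_TT_dvd' H e
  rw [card_pst T h.le, card_U T, hD _ _ h0, AddSubgroup.card_bot, mul_one] at h7 h8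
  by_cases hW : Ws T H = ⊥
  · rw [hW, AddSubgroup.card_bot, one_mul] at h7 h8
    obtain rfl := num_three hq h5 (Nat.odd_iff.1 hodd) h8 (hs ▸ Nat.mul_le_mul
      (Nat.le_of_dvd q.succ_pos (card_TT_dvd h0 h6)) (num_five (Nat.le_succ_of_le hq) hs'))
    clear hs'
    rw [(Nat.le_of_dvd (by norm_num) h9).antisymm h8] at h7
    have : Fact (Nat.Prime 7) := ⟨by norm_num⟩
    obtain ⟨S, x, k, n, -, -, h12, h13, -, h14⟩ := syl_odd h.nd h.fin (r := 7) (by norm_num)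
      (by norm_num) h.le (M := 32) (h7.trans (by norm_num)) (by norm_num)
    have := Nat.le_of_dvd (by norm_num) ⟨n, h12.symm⟩
    interval_cases k <;> omega
  obtain ⟨h10, h11⟩ := W_bound T h.le (hD _ _ h0) hW
  obtain ⟨e1, e2, e3, e4⟩ := num_odd hq h5 (Nat.odd_iff.1 hodd) h10
    (u_card hF ▸ AddSubgroup.card_addSubgroup_dvd_card _) (card_TT_dvd h0 h11) h9 hs
    (card_TT_dvd h0 fun g hg t ht0 ht => by
      have h12 := h11 g hg.2.1 t ht0 ht
      have h13 := congrArg (· ^ 3) (h6 g hg t ht0 ht)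
      simp only [← pow_mul, one_pow] at h13
      rwa [show (q + 1) * 3 = 3 * (q - 1) + 6 by omega, pow_add, h12, one_mul] at h13)
    (by
      have h12 := Subgroup.orderOf_dvd_natCard (TT (SC P e f ⊓ K) e) (x := -1)
        ⟨j, ⟨mem_SC T (l := -1) (by simp [je]) (by simp [jf]), j.2, mem_pst_of_fix jv⟩, by simp [je]⟩
      rwa [orderOf_eq_prime (p := 2) (by simp) fun h => h2 (by
        have := congrArg Units.val h
        simp only [Units.val_neg, Units.val_one] at this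
        linear_combination -this)] at h12) h8 hs'
  have : Fact (Nat.Prime 3) := ⟨by norm_num⟩
  obtain ⟨⟨t, ht'⟩, ht⟩ := exists_prime_orderOf_dvd_card'
    (G := TT (SC P e f ⊓ K) e) 3 (by rw [e4]; norm_num)
  rw [Subgroup.orderOf_mk] at ht
  obtain ⟨z, ⟨⟨l, hl, z1, z2⟩, z3, m, -, z4⟩, z5⟩ := ht'
  obtain rfl := smul_left_injective F h0 (z1.symm.trans z5)
  obtain ⟨t1, t2⟩ := orderOf_eq_prime_iff.1 ht
  have t3 : (t : F) ^ 3 = 1 := congrArg Units.val t1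
  have t4 := plane_det T (h.le z3) (a := t) (b := 0) (c := 0) (d := t) z4 (by simp [z1])
    (by simp [z2])
  have t5 : ∀ x : V, z • x = (t : F) • x := fun x => by
    obtain ⟨a, b, c, rfl⟩ := fr_exists T x
    rw [smul_add, smul_add, act_smul, act_smul, act_smul, z1, z2, z4,
      show m = t by linear_combination t * t4 - m * t3]
    module
  refine h.not_eleven e1 (by rw [h7, e2, e3, e1]; norm_num) z3 (orderOf_eq_prime
    (iso_ext fun x => by rw [pow_act (t5 x), t3, one_smul, one_smul]) fun h => t2 ?_)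
    fun g => iso_ext fun x => by rw [mul_smul, mul_smul, t5, t5, act_smul]
  rw [h, one_smul] at z1
  exact Units.ext (smul_left_injective F h0 (z1.symm.trans (one_smul F e).symm))

/-- A proper point-transitive subgroup with large point stabilizers. -/
theorem Hy.main (h : Hy P H) (hq : 3 ≤ q) (hn : ¬ P.EG ≤ H)
    (hA : ∀ e, P.Sing e → e ≠ 0 → q ^ 2 - 1 ≤ Nat.card (H ⊓ P.pst e : Subgroup P.Iso)) :
    q = 5 ∧ ∃ e, P.Sing e ∧ e ≠ 0 ∧ Nat.card (H ⊓ P.pst e : Subgroup P.Iso) ≤ 60 := by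
  obtain ⟨e, v, f, T⟩ := exists_fr3 h.nd h.fin
  have he := T.hyp.left
  have h0 := T.hyp.left_ne_zero
  by_cases hD : P.Dv H he = ⊥
  · by_cases h2 : (2 : F) = 0
    · exact (h.even_D0 h2 hq T hD (hA e he h0)).elim
    obtain rfl : q = 5 := by_contra fun h5 =>
      h.odd_D0 h2 hq h5 (fun x hx hx0 => h.D_bot he h0 hD hx hx0) hA
    refine ⟨rfl, e, he, h0, ?_⟩
    rw [card_pst T h.le, card_U T, hD, AddSubgroup.card_bot, mul_one]
    by_cases hW : Ws T H = ⊥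
    · have := Nat.le_of_dvd (by norm_num) (card_TT_dvd' H e)
      rw [hW, AddSubgroup.card_bot]; omega
    · obtain ⟨h10, h11⟩ := W_bound T h.le hD hW
      exact Nat.mul_le_mul h10 (Nat.le_of_dvd (by norm_num) (card_TT_dvd h0 h11))
  obtain ⟨c, hc, hc0⟩ := exists_ne_zero_of_ne_bot hD
  by_cases h2 : (2 : F) = 0
  · exact (h.even_D2 h2 hq T hc hc0 (fun d hd hd0 => by_contra fun hne =>
      hn (h.even_D h2 he h0 hd hc hd0 hc0 hne)) (hA e he h0)).elim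
  · exact absurd (h.odd_D h2 he h0 hc hc0) hn

theorem u3_index (hP : P.ND) (h3 : finrank F V = 3) (hq : 3 ≤ q) (hn : ¬ P.EG ≤ H) :
    q ^ 3 + 1 ≤ H.relIndex P.EG ∨ q = 5 ∧ 50 ≤ H.relIndex P.EG := by
  rw [← Subgroup.inf_relIndex_right]
  refine or_iff_not_imp_left.2 fun h => ?_
  have h1 := hy_of_index hP h3 inf_le_right (Nat.le_of_lt_succ (not_le.1 h))
  obtain ⟨rfl, e, he, h0, h2⟩ := h1.main hq (fun h => hn (h.trans inf_le_left)) fun e he h0 =>
    Nat.le_of_mul_le_mul_left (h1.index he h0 ▸ Nat.mul_le_mul_right _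
      (Nat.le_of_lt_succ (not_le.1 h))) (pow_pos (by omega : 0 < q) 3)
  have h4 := h1.index he h0
  refine ⟨rfl, by_contra fun h5 => ?_⟩
  have := Nat.mul_le_mul (Nat.le_of_lt_succ (not_le.1 h5)) h2
  omega

theorem u3_exists (hP : P.ND) (h3 : finrank F V = 3) : ∃ H : Subgroup P.Iso,
    (∀ z ∈ P.EG, (∀ g ∈ P.EG, z * g = g * z) → z ∈ H) ∧ H.relIndex P.EG = q ^ 3 + 1 := by
  obtain ⟨e, v, f, T⟩ := exists_fr3 hP h3
  refine ⟨P.pst e, mem_pst_of_commute hP u_rich T.hyp T.hyp.left_ne_zero, ?_⟩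
  have h1 := relIndex_mul_card (P.pst e) P.EG
  rw [(hy_EG hP h3).card_eq T.hyp.left T.hyp.left_ne_zero, inf_comm] at h1
  exact Nat.eq_of_mul_eq_mul_right Nat.card_pos h1

end Cfsg.Agent.U3
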