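import Cfsg.Agent.U3.Stab

/-! Point-transitive subgroups of `SU₃(q)` containing transvections; elements of large prime
order. -/

set_option autoImplicit false

open Module MulAction

namespace Cfsg.Agent.U3

open Cfsg.Agent.Polar Cfsg.Agent.Polar.PQ Cfsg.Agent.Forms Cfsg.Agent.Forms.RegCl
open scoped Pointwise

variable {F : Type*} [Field F] [Fintype F] {q : ℕ} {hF : Fintype.card F = q ^ 2}
variable {V : Type*} [AddCommGroup V] [Module F V] {P : PQ (uFP hF) V}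

local notation "σ" => frobq hF

theorem cast_q (hF : Fintype.card F = q ^ 2) : (q : F) = 0 := by
  have := FiniteField.cast_card_eq_zero F
  rw [hF, Nat.cast_pow] at this
  exact pow_eq_zero_iff two_ne_zero |>.1 this

theorem even_q_iff (hF : Fintype.card F = q ^ 2) : Even q ↔ (2 : F) = 0 := by
  refine ⟨fun h => ?_, fun h => by_contra fun hn => ?_⟩
  · obtain ⟨p, k, hp, hc, rfl⟩ := exists_char_pow hF
    have := (Nat.prime_dvd_prime_iff_eq Nat.prime_two hp).1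
      (Nat.prime_two.dvd_of_dvd_pow (even_iff_two_dvd.1 h))
    subst this
    exact CharP.cast_eq_zero F 2
  · obtain ⟨k, hk⟩ := Nat.not_even_iff_odd.1 hn
    have := cast_q hF
    rw [hk, Nat.cast_add, Nat.cast_mul, Nat.cast_ofNat, h] at this
    simp at this

theorem transv_pow {x : V} (hx : P.Sing x) {c : F} (hc : c ∈ (uFP hF).Λ) (n : ℕ) :
    P.eich x 0 c ^ n = P.eich x 0 (n * c) := by
  induction n with
  | zero => simp [eich_zero]
  | succ n ih =>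
    rw [pow_succ, ih, (EOk.lam hx (by simpa using nsmul_mem hc n)).eich_mul (EOk.lam hx hc)]
    simp [add_mul]

theorem transv_ne_one (hP : P.ND) {x : V} (hx : P.Sing x) (hx0 : x ≠ 0) {c : F}
    (hc : c ∈ (uFP hF).Λ) (hc0 : c ≠ 0) : P.eich x 0 c ≠ 1 := fun h => by
  obtain ⟨f, hf⟩ := hP.exists_hyp hx hx0
  exact hc0 (hf.eich_inj (EOk.lam hx hc) (by simp) (EOk.zero hx) (by simp)
    (h.trans (eich_zero x).symm)).2

theorem pow_act {g : P.Iso} {y : V} {t : F} (h : g • y = t • y) (n : ℕ) :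
    g ^ n • y = t ^ n • y := by
  induction n with
  | zero => simp
  | succ n ih => rw [pow_succ, mul_smul, h, act_smul, ih, smul_smul, pow_succ']

variable [Finite V] [FiniteDimensional F V] {H : Subgroup P.Iso}

omit [Finite V] [FiniteDimensional F V] in
theorem Hy.D_ne (h : Hy P H) {e : V} (he : P.Sing e) (h0 : e ≠ 0) {c : F} (hc : c ∈ P.Dv H he)
    (hc0 : c ≠ 0) {x : V} (hx : P.Sing x) (hx0 : x ≠ 0) : ∃ d ∈ P.Dv H hx, d ≠ 0 := by
  obtain ⟨g, hg, t, ht, h1⟩ := h.tr e x he h0 hx hx0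
  exact ⟨_, D_conj he hx hg h1 hc, by simp [ht, hc0]⟩

omit [Finite V] in
theorem plane_det {e v f : V} (T : Fr3 P e v f) {g : P.Iso} (hg : g ∈ P.EG) {m a b c d : F}
    (hv : g • v = m • v) (he : g • e = a • e + b • f) (hf : g • f = c • e + d • f) :
    m * (a * d - b * c) = 1 := by
  have h1 := fr_det T (g := g) (a₁ := a) (a₂ := 0) (a₃ := b) (b₁ := 0) (b₂ := m) (b₃ := 0)
    (c₁ := c) (c₂ := 0) (c₃ := d) (by simp [he]) (by simp [hv]) (by simp [hf])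
  rw [det_of_mem hg, Units.val_one] at h1
  linear_combination -h1

omit [Finite V] in
theorem neg_of_invol (h2 : (2 : F) ≠ 0) {e v f : V} (T : Fr3 P e v f) {g : P.Iso} (hg : g ∈ P.EG)
    (hv : g • v = v) (hgg : g * g = 1) (hg1 : g ≠ 1) : g • e = -e ∧ g • f = -f := by
  obtain ⟨a, b, he⟩ := fr_perp_v T (act_mem_perp (mem_pst_of_fix hv) (B_swap_zero T.ve))
  obtain ⟨c, d, hf⟩ := fr_perp_v T (act_mem_perp (mem_pst_of_fix hv) (B_swap_zero T.vf))
  have h1 := (plane_det T hg (hv.trans (one_smul F v).symm) he hf).symm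
  have e1 : g • g • e = e := by rw [← mul_smul, hgg, one_smul]
  have e2 : g • g • f = f := by rw [← mul_smul, hgg, one_smul]
  rw [he, smul_add, act_smul, act_smul, he, hf] at e1
  rw [hf, smul_add, act_smul, act_smul, he, hf] at e2
  obtain ⟨h3, -, h4⟩ := fr_inj T (X := a * a + b * c) (Y := 0) (W := a * b + b * d) (X' := 1)
    (Y' := 0) (W' := 0) (by linear_combination (norm := module) e1)
  obtain ⟨h5, -, -⟩ := fr_inj T (X := c * a + d * c) (Y := 0) (W := c * b + d * d) (X' := 0)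
    (Y' := 0) (W' := 1) (by linear_combination (norm := module) e2)
  have h6 : a + d ≠ 0 := fun h => h2 (by linear_combination a * h - h3 + h1)
  have hb : b = 0 := mul_left_cancel₀ h6 (by linear_combination h4)
  have hc : c = 0 := mul_left_cancel₀ h6 (by linear_combination h5)
  subst hb hc
  have h7 : d = a := by linear_combination (-d) * h3 - a * h1
  subst h7
  rcases mul_self_eq_one_iff.1 (show d * d = 1 by linear_combination h3) with rfl | rfl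
  · exact absurd (fr_ext T (by simp [he]) (by simp [hv]) (by simp [hf])) hg1
  · exact ⟨by simp [he], by simp [hf]⟩

theorem Hy.odd_D (h : Hy P H) (h2 : (2 : F) ≠ 0) {e : V} (he : P.Sing e) (h0 : e ≠ 0) {c : F}
    (hc : c ∈ P.Dv H he) (hc0 : c ≠ 0) : P.EG ≤ H := by
  obtain ⟨v, f, T⟩ := fr_of_sing h.nd h.fin he h0
  refine h.gen T (l := -1) (fun h => h2 (by linear_combination -h)) fun a => ?_
  have hv : P.B (v - a • e) (v - a • e) = 1 := by simp [T.vv, T.ve, B_swap_zero T.ve, he.B_self]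
  obtain ⟨f', T'⟩ := fr_of_perp h.nd h.fin he h0 (v := v - a • e) (by simp [T.ve, he.B_self]) hv
  set w := v - a • e
  obtain ⟨p, k, hp, hch, -⟩ := exists_char_pow hF
  have := Fact.mk hp
  let K : Subgroup P.Iso := H ⊓ stabilizer P.Iso w
  have h1 := orbit_eq_of_unique (G := K) (p := p) (S := pts F (P.sing0 (P.perp {w})))
    (fun g => smul_mem_pts fun x hx => ⟨mem_perp_singleton.2 (act_mem_perp (mem_pst_of_fix g.2.2)
      (mem_perp_singleton.1 hx.1)), act_ne_zero _ hx.2.1, hx.2.2.act _⟩)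
    (by
      rintro _ ⟨x, hx, rfl⟩
      obtain ⟨d, hd, hd0⟩ := h.D_ne he h0 hc hc0 hx.2.2 hx.2.1
      refine ⟨⟨P.eich x 0 d, hd.2, (EOk.lam hx.2.2 hd.1).eich_smul_of_perp₂
        (B_swap_zero (mem_perp_singleton.1 hx.1)) (by simp)⟩, Subtype.ext ?_, ?_⟩
      · simp [transv_pow hx.2.2 hd.1, eich_zero]
      · rintro _ ⟨y, hy, rfl⟩
        refine ⟨fun h3 => span_eq_of_U h.nd h.fin hx.2.2 hx.2.1 hy.2.2 hy.2.1 (eich_mem_U _ _ _)
          (transv_ne_one h.nd hx.2.2 hx.2.1 hd.1 hd0) (smul_pt_eq_iff.1 h3), fun h3 => ?_⟩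
        simp only at h3 ⊢
        rw [h3]
        exact smul_pt_eq_iff.2 (U_le_pst _ (eich_mem_U _ _ _)))
    (mem_pts (S := P.sing0 (P.perp {w})) ⟨mem_perp_singleton.2 (B_swap_zero T'.ve), h0, he⟩)
  have h3 := card_orbit_mul K e
  rw [h1, card_pts_line h.nd h.fin hv] at h3
  have : Fact (Nat.Prime 2) := ⟨Nat.prime_two⟩
  obtain ⟨g, hg⟩ := exists_prime_orderOf_dvd_card' (G := K) 2 (h3 ▸ Dvd.dvd.mul_right
    (even_iff_two_dvd.1 (Odd.add_one (Nat.not_even_iff_odd.1 (mt (even_q_iff hF).1 h2)))) _)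
  obtain ⟨h4, h5⟩ := (orderOf_eq_prime_iff).1 hg
  refine ⟨g, g.2.1, ?_, g.2.2⟩
  rw [(neg_of_invol h2 T' (h.le g.2.1) g.2.2 (by rw [← pow_two]; exact congrArg Subtype.val h4)
    fun h6 => h5 (Subtype.ext h6)).1, neg_one_smul]

omit [Finite V] in
theorem pst_of_commute (hP : P.ND) (h3 : finrank F V = 3) {x : V} (hx : P.Sing x) (hx0 : x ≠ 0)
    {u u' g : P.Iso} (hu : u ∈ P.U x) (hu1 : u ≠ 1) {y : V} (hy : P.Sing y) (hy0 : y ≠ 0)
    (hu' : u' ∈ P.U y) (h : g * u * g⁻¹ = u') : ∃ t : F, t ≠ 0 ∧ g • x = t • y :=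
  span_eq_iff'.1 (span_eq_of_U hP h3 hy hy0 (hx.act g) (act_ne_zero g hx0) hu'
    (fun h1 => hu1 (by rwa [h1, mul_inv_eq_one, mul_eq_left] at h))
    (h ▸ U_le_pst _ (conj_mem_U hu)))

theorem Hy.even_D (h : Hy P H) (h2 : (2 : F) = 0) {e : V} (he : P.Sing e) (h0 : e ≠ 0)
    {c₁ c₂ : F} (hc₁ : c₁ ∈ P.Dv H he) (hc₂ : c₂ ∈ P.Dv H he) (h₁ : c₁ ≠ 0) (h₂ : c₂ ≠ 0)
    (hne : c₁ ≠ c₂) : P.EG ≤ H := by
  obtain ⟨v, f, T⟩ := fr_of_sing h.nd h.fin he h0
  have hsq : ∀ s t : F, s * s = t * t → s = t := fun s t hst =>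
    sub_eq_zero.1 (mul_self_eq_zero.1 (by linear_combination hst + (t * t - s * t) * h2))
  obtain ⟨l, hl⟩ : ∃ l : F, l * l = c₂ / c₁ :=
    Finite.injective_iff_surjective.1 (show Function.Injective fun s : F => s * s from hsq) _
  refine h.gen T (l := l) (fun h => hne (by
    rw [h, mul_one, eq_div_iff h₁, one_mul] at hl; exact hl)) fun a => ?_
  have hv : P.B (v - a • e) (v - a • e) = 1 := by simp [T.vv, T.ve, B_swap_zero T.ve, he.B_self]
  obtain ⟨f', T'⟩ := fr_of_perp h.nd h.fin he h0 (v := v - a • e) (by simp [T.ve, he.B_self]) hv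
  set w := v - a • e
  have hf := T'.hyp.right
  have hf0 := T'.hyp.right_ne_zero
  obtain ⟨d, hd, hd0⟩ := h.D_ne he h0 hc₁ h₁ hf hf0
  let K : Subgroup P.Iso := H ⊓ stabilizer P.Iso w
  have hK : ∀ g ∈ K, ∀ t : F, g • e = t • e → ∀ c c', c ∈ (uFP hF).Λ → c' ∈ (uFP hF).Λ →
      g * P.eich e 0 c * g⁻¹ = P.eich e 0 c' → t * t * c = c' := fun g hg t ht c c' hc hc' hg' => by
    obtain ⟨ht0, b, hb⟩ := fr_act T' (det_of_mem (h.le hg.1)) ht
    have h3 := (fr_inj T' (X := 0) (Y := 1) (W := 0) (X' := b) (Y' := σ t / t) (W' := 0)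
      (by simpa [show g • w = w from hg.2] using hb)).2.1
    rw [conj_transvec he hc ht] at hg'
    rw [← (T'.hyp.eich_inj (EOk.lam he ((uFP hF).lam_smul t c hc)) (by simp) (EOk.lam he hc')
      (by simp) hg').2, ← (eq_div_iff ht0).1 h3, one_mul]
  have hj : ∀ x (hx : P.Sing x), P.B w x = 0 → ∀ c ∈ P.Dv H hx, P.eich x 0 c ∈ K ∧
      P.eich x 0 c * P.eich x 0 c = 1 := fun x hx hw c hc =>
    ⟨⟨hc.2, (EOk.lam hx hc.1).eich_smul_of_perp₂ hw (by simp)⟩, by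
      rw [← pow_two, transv_pow hx hc.1, Nat.cast_ofNat, h2, zero_mul, eich_zero]⟩
  have key : ∀ c ∈ P.Dv H he, c ≠ 0 → ∃ g ∈ K, g * P.eich e 0 c * g⁻¹ = P.eich f' 0 d := by
    intro c hc hc0
    obtain ⟨m1, s1⟩ := hj e he T'.ve c hc
    obtain ⟨m2, s2⟩ := hj f' hf T'.vf d hd
    rcases GLn.dihedral_cases s1 s2 with ⟨k, hk⟩ | ⟨k, hk, c1, c2⟩
    · exact ⟨_, pow_mem (mul_mem m1 m2) k, hk⟩
    · have m := pow_mem (mul_mem m1 m2) k
      obtain ⟨t, -, ht⟩ := pst_of_commute h.nd h.fin he h0 (eich_mem_U _ _ _)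
        (transv_ne_one h.nd he h0 hc.1 hc0) he h0 (eich_mem_U _ _ _) c1.mul_inv_cancel
      have h3 := hK _ m t ht c c hc.1 hc.1 c1.mul_inv_cancel
      have h4 : t = 1 := hsq _ _ (mul_right_cancel₀ hc0 (by rw [h3, mul_one, one_mul]))
      have h5 := span_eq_of_U h.nd h.fin he h0 hf hf0
        (fr_mem_U T' (det_of_mem (h.le m.1)) (by rw [ht, h4, one_smul])) hk
        (pst_of_commute h.nd h.fin hf hf0 (eich_mem_U _ _ _) (transv_ne_one h.nd hf hf0 hd.1 hd0)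
          hf hf0 (eich_mem_U _ _ _) c2.mul_inv_cancel)
      obtain ⟨s, -, hs⟩ := span_eq_iff'.1 h5
      simpa [hs, he.B_self] using T'.hyp.pair
  obtain ⟨g₁, m₁, e₁⟩ := key c₁ hc₁ h₁
  obtain ⟨g₂, m₂, e₂⟩ := key c₂ hc₂ h₂
  have m := mul_mem (inv_mem m₂) m₁
  have e₃ : g₂⁻¹ * g₁ * P.eich e 0 c₁ * (g₂⁻¹ * g₁)⁻¹ = P.eich e 0 c₂ := by
    rw [show P.eich e 0 c₂ = g₂⁻¹ * (g₂ * P.eich e 0 c₂ * g₂⁻¹) * g₂ by group, e₂, ← e₁]; group
  obtain ⟨t, -, ht⟩ := pst_of_commute h.nd h.fin he h0 (eich_mem_U _ _ _)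
    (transv_ne_one h.nd he h0 hc₁.1 h₁) he h0 (eich_mem_U _ _ _) e₃
  refine ⟨_, m.1, ?_, m.2⟩
  rw [ht, hsq t l (by rw [hl, eq_div_iff h₁, hK _ m t ht _ _ hc₁.1 hc₂.1 e₃])]

section Prime

variable (hP : P.ND) (h3 : finrank F V = 3) {r : ℕ} [hr : Fact r.Prime] (hq : ¬ r ∣ q)
  (hq' : ¬ r ∣ q ^ 2 - 1) {x : P.Iso} (hx : x ∈ P.EG) (hxr : x ^ r = 1) (hx1 : x ≠ 1)
include hP h3 hq' hx hxr

omit [Finite V] in
theorem mem_U_of_pst {y : V} (hy : P.Sing y) (hy0 : y ≠ 0) (h : x ∈ P.pst y) : x ∈ P.U y := by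
  obtain ⟨t, ht0, ht⟩ := h
  obtain ⟨v, f, T⟩ := fr_of_sing hP h3 hy hy0
  have h1 := pow_act ht r
  rw [hxr, one_smul] at h1
  have h2 : t ^ r = 1 := (smul_left_injective F hy0 ((one_smul F y).trans h1)).symm
  have h4 : t = 1 := orderOf_eq_one_iff.1 (Nat.eq_one_of_dvd_coprimes
    ((Nat.Prime.coprime_iff_not_dvd hr.out).2 hq') (orderOf_dvd_of_pow_eq_one h2)
    (orderOf_dvd_of_pow_eq_one (hF ▸ FiniteField.pow_card_sub_one_eq_one t ht0)))
  exact fr_mem_U T (det_of_mem hx) (by rw [ht, h4, one_smul])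

include hq hx1

theorem no_fix_sing {y : V} (hy : P.Sing y) (hy0 : y ≠ 0) : x ∉ P.pst y := fun h => by
  obtain ⟨v, f, T⟩ := fr_of_sing hP h3 hy hy0
  have h1 := (P.U y).orderOf_dvd_natCard (mem_U_of_pst hP h3 hq' hx hxr hy hy0 h)
  rw [orderOf_eq_prime hxr hx1, card_U_eq T h3] at h1
  exact hq (hr.out.dvd_of_dvd_pow h1)

theorem no_fix {y : V} (hy0 : y ≠ 0) : x ∉ P.pst y := fun h => by
  by_cases hy : P.B y y = 0
  · exact no_fix_sing hP h3 hq hq' hx hxr hx1 (u_sing_iff.2 hy) hy0 h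
  obtain ⟨c, hc, hv⟩ := exists_norm_vec hy
  rw [← pst_smul hc] at h
  obtain ⟨_, ⟨z, hz, rfl⟩, h1⟩ := exists_fix hxr (S := pts F (P.sing0 (P.perp {c • y})))
    (smul_mem_pts fun x hx => ⟨mem_perp_singleton.2 (act_mem_perp h
      (mem_perp_singleton.1 hx.1)), act_ne_zero _ hx.2.1, hx.2.2.act _⟩)
    (by
      rw [card_pts_line hP h3 hv]
      exact fun hd => hq' (hd.trans ⟨q - 1, by simpa using Nat.pow_two_sub_pow_two q 1⟩))
  exact no_fix_sing hP h3 hq hq' hx hxr hx1 hz.2.2 hz.2.1 (smul_pt_eq_iff.1 h1)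

omit [Finite V] hP hq hq' hx hxr hx1 hr in
theorem exists_eigen {j : P.Iso} (hjj : j * j = 1) : ∃ c : F, (c = 1 ∨ c = -1) ∧
    2 ≤ finrank F (LinearMap.ker (((j : V ≃ₗ[F] V) : V →ₗ[F] V) - c • LinearMap.id)) := by
  have h1 := LinearMap.finrank_range_add_finrank_ker
    (((j : V ≃ₗ[F] V) : V →ₗ[F] V) - (-1 : F) • LinearMap.id)
  have h2 : LinearMap.range (((j : V ≃ₗ[F] V) : V →ₗ[F] V) - (-1 : F) • LinearMap.id) ≤
      LinearMap.ker (((j : V ≃ₗ[F] V) : V →ₗ[F] V) - (1 : F) • LinearMap.id) := by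
    rintro _ ⟨y, rfl⟩
    have : (j : V ≃ₗ[F] V) ((j : V ≃ₗ[F] V) y) = y := by
      rw [← smul_def, ← smul_def, ← mul_smul, hjj, one_smul]
    simp [this, add_comm]
  have h4 := Submodule.finrank_mono h2
  by_contra hn
  push Not at hn
  have := hn 1 (Or.inl rfl)
  have := hn (-1) (Or.inr rfl)
  omega

theorem not_normalized {j : P.Iso} (hj : j ∈ P.EG) (hjj : j * j = 1) (hj1 : j ≠ 1) :
    j * x * j⁻¹ ∉ Subgroup.zpowers x := fun hn => by
  obtain ⟨c, hc, h1⟩ := exists_eigen h3 hjj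
  set L := ((j : V ≃ₗ[F] V) : V →ₗ[F] V) - c • LinearMap.id with hL
  have hL' : ∀ y, L y = j • y - c • y := fun y => rfl
  have hE : ∀ y, y ∈ LinearMap.ker L ↔ j • y = c • y := fun y => by
    rw [LinearMap.mem_ker, hL', sub_eq_zero]
  have h2 := Submodule.finrank_sup_add_finrank_inf_eq (LinearMap.ker L)
    ((LinearMap.ker L).map ((x : V ≃ₗ[F] V) : V →ₗ[F] V))
  have h4 := Submodule.finrank_le (LinearMap.ker L ⊔
    (LinearMap.ker L).map ((x : V ≃ₗ[F] V) : V →ₗ[F] V))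
  rw [LinearEquiv.finrank_map_eq] at h2
  obtain ⟨z, ⟨hz, y, hy, rfl⟩, hz0⟩ := Submodule.exists_mem_ne_zero_of_ne_bot
    (p := LinearMap.ker L ⊓ (LinearMap.ker L).map ((x : V ≃ₗ[F] V) : V →ₗ[F] V)) fun h => by
      rw [h, finrank_bot] at h2; omega
  have h5 : j * x * j⁻¹ * x⁻¹ ∈ Subgroup.zpowers x := mul_mem hn (inv_mem (Subgroup.mem_zpowers x))
  have h6 : j * x * j⁻¹ * x⁻¹ = 1 := by_contra fun h => by
    obtain ⟨k, hk⟩ := h5
    refine no_fix hP h3 hq hq' (mul_mem (mul_mem (mul_mem hj hx) (inv_mem hj)) (inv_mem hx))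
      (by rw [← hk, ← zpow_natCast, ← zpow_mul, mul_comm, zpow_mul, zpow_natCast, hxr, one_zpow])
      h hz0 (mem_pst_of_fix ?_)
    change _ • x • y = x • y
    have h7 : j • x • y = c • x • y := (hE _).1 hz
    rw [mul_smul, inv_smul_smul, inv_eq_of_mul_eq_one_right hjj, mul_smul, (hE _).1 hy, act_smul,
      mul_smul, h7, smul_smul, show c * c = 1 by rcases hc with rfl | rfl <;> simp, one_smul]
  rw [mul_inv_eq_one, mul_inv_eq_iff_eq_mul] at h6
  obtain ⟨e, v, f, T⟩ := exists_fr3 hP h3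
  have h7 : ∃ u, L u ≠ 0 := by_contra fun h => by
    push Not at h
    have h8 : ∀ u : V, j • u = c • u := fun u => (hE u).1 (h u)
    obtain ⟨hc0, b, hb⟩ := fr_act T (det_of_mem hj) (h8 e)
    have h9 := (fr_inj T (X := 0) (Y := c) (W := 0) (X' := b) (Y' := σ c / c) (W' := 0)
      (by simpa [h8] using hb)).2.1
    rw [show σ c / c = 1 by rcases hc with rfl | rfl <;> simp] at h9
    exact hj1 (iso_ext fun u => by rw [h8, h9, one_smul, one_smul])
  obtain ⟨u, hu⟩ := h7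
  have h8 := LinearMap.finrank_range_add_finrank_ker L
  have h9 : (⟨L u, u, rfl⟩ : LinearMap.range L) ≠ 0 := fun h => hu (congrArg Subtype.val h)
  have : Nontrivial (LinearMap.range L) := ⟨_, _, h9⟩
  have := finrank_pos (R := F) (M := LinearMap.range L)
  obtain ⟨a, ha⟩ := (finrank_eq_one_iff_of_nonzero' (K := F) _ h9).1 (by omega) ⟨L (x • u), _, rfl⟩
  refine no_fix hP h3 hq hq' hx hxr hx1 hu (mem_pst_of_eq hu (t := a) ?_)
  rw [show a • L u = L (x • u) from congrArg Subtype.val ha, hL', hL', smul_sub, act_smul,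
    ← mul_smul, ← mul_smul, h6]

omit hx hxr hx1 in
theorem syl_odd (hH : H ≤ P.EG) {M : ℕ} (hc : Nat.card H = r * M) (hM : ¬ r ∣ M) :
    ∃ (S : Sylow r H) (x : H) (k n : ℕ), (S : Subgroup H) = Subgroup.zpowers x ∧ orderOf x = r ∧
      k * n = M ∧ n % r = 1 ∧ Nat.card (Subgroup.normalizer (S : Set H)) = r * k ∧ ¬ 2 ∣ k := by
  obtain ⟨S, x, k, n, h1, h2, h4, h5, h6⟩ := exists_syl hc hM
  refine ⟨S, x, k, n, h1, h2, h4, h5, h6, fun h7 => ?_⟩
  have : Fact (Nat.Prime 2) := ⟨Nat.prime_two⟩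
  obtain ⟨j, hj⟩ := exists_prime_orderOf_dvd_card' (G := Subgroup.normalizer (S : Set H)) 2
    (h6 ▸ h7.mul_left r)
  obtain ⟨h8, h9⟩ := orderOf_eq_prime_iff.1 hj
  obtain ⟨h10, h11⟩ := orderOf_eq_prime_iff.1 h2
  have h12 : j.1 * x * j.1⁻¹ ∈ (S : Subgroup H) :=
    (Subgroup.mem_set_normalizer_iff.1 j.2 x).1 (h1 ▸ Subgroup.mem_zpowers x : x ∈ (S : Subgroup H))
  rw [h1] at h12
  obtain ⟨m, hm⟩ := h12
  exact not_normalized hP h3 hq hq' (hH x.2) (congrArg Subtype.val h10)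
    (fun h => h11 (Subtype.ext h)) (hH j.1.2)
    (by rw [← pow_two]; exact congrArg (fun y => y.1.1) h8)
    (fun h => h9 (Subtype.ext (Subtype.ext h))) ⟨m, congrArg Subtype.val hm⟩

end Prime

end Cfsg.Agent.U3
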