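import Cfsg.Agent.U3.CaseD

/-! Point-transitive subgroups of `SU₃(q)`, `q` even, with few transvections. -/

set_option autoImplicit false

open Module MulAction

namespace Cfsg.Agent.U3

open Cfsg.Agent.Polar Cfsg.Agent.Polar.PQ Cfsg.Agent.Forms Cfsg.Agent.Forms.RegCl
open scoped Pointwise

variable {F : Type*} [Field F] [Fintype F] {q : ℕ} {hF : Fintype.card F = q ^ 2}
variable {V : Type*} [AddCommGroup V] [Module F V] {P : PQ (uFP hF) V}

local notation "σ" => frobq hF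

theorem card_le_of_cube {W : AddSubgroup F} {c : F} (h : ∀ b ∈ W, b ≠ 0 → b ^ 3 = c) :
    Nat.card W ≤ 4 := by
  classical
  have h1 : (W : Set F) ⊆ (insert 0 (Polynomial.nthRoots 3 c).toFinset : Finset F) := fun b hb => by
    by_cases h0 : b = 0
    · simp [h0]
    · simp [h b hb h0]
  have h2 := Set.ncard_le_ncard h1
  rw [Set.ncard_coe_finset] at h2
  have h3 := Finset.card_insert_le (0 : F) (Polynomial.nthRoots 3 c).toFinset
  have h4 := (Multiset.toFinset_card_le _).trans (Polynomial.card_nthRoots 3 c)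
  exact (Nat.card_coe_set_eq _).trans_le (by omega)

theorem num_D2 {q k w τ : ℕ} (hq : 3 ≤ q) (hk : q = k + k) (hw : w ≤ 4) (h1 : τ ∣ q + 1)
    (h2 : τ ∣ 9) (hA : q ^ 2 - 1 ≤ w * 2 * τ) : q = 8 ∧ w = 4 ∧ τ = 9 := by
  have h6 := Nat.le_of_dvd (by norm_num) h2
  have h7 : w * 2 * τ ≤ 4 * 2 * 9 := by gcongr
  have h8 : q ≤ 8 := by_contra fun h => by
    have := Nat.pow_le_pow_left (show 9 ≤ q by omega) 2
    omega
  interval_cases q <;> interval_cases τ <;> omega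

variable [Finite V] [FiniteDimensional F V] {H : Subgroup P.Iso}

theorem Hy.even_D2 (h : Hy P H) (h2 : (2 : F) = 0) (hq : 3 ≤ q) {e v f : V} (T : Fr3 P e v f)
    {c : F} (hc : c ∈ P.Dv H T.hyp.left) (hc0 : c ≠ 0)
    (hD : ∀ d ∈ P.Dv H T.hyp.left, d ≠ 0 → d = c)
    (hA : q ^ 2 - 1 ≤ Nat.card (H ⊓ P.pst e : Subgroup P.Iso)) : False := by
  have he := T.hyp.left
  have h0 := T.hyp.left_ne_zero
  have hD2 : Nat.card (P.Dv H he) = 2 := by
    rw [← Set.ncard_pair hc0.symm, ← Nat.card_coe_set_eq]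
    refine congrArg (fun s : Set F => Nat.card s) (Set.ext fun d => ⟨fun hd => ?_, ?_⟩)
    · exact (eq_or_ne d 0).imp id (hD d hd)
    · rintro (rfl | rfl)
      exacts [zero_mem _, hc]
  have hN : ∀ g ∈ H, ∀ t : F, t ≠ 0 → g • e = t • e → t * σ t = 1 := fun g hg t ht0 ht =>
    mul_right_cancel₀ hc0 ((hD _ (D_conj he he hg ht hc) (by simp [ht0, hc0])).trans
      (one_mul c).symm)
  have h1 : Nat.card (TT H e) ∣ q + 1 := card_TT_dvd h0 fun g hg t ht0 ht => by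
    rw [pow_succ']; exact hN g hg t ht0 ht
  have hW : ∀ a ∈ Ws T H, ∀ b ∈ Ws T H, a ≠ 0 → b ≠ 0 → b ^ 3 = a ^ 3 := fun a ha b hb ha0 hb0 => by
    by_cases hab : a + b = 0
    · rw [show b = a by linear_combination hab - a * h2]
    have e1 := hD _ (Ws_sq T h2 ha) (by simp [ha0])
    have e2 := hD _ (Ws_sq T h2 hb) (by simp [hb0])
    have e3 := hD _ (Ws_sq T h2 (add_mem ha hb)) (mul_ne_zero hab (by rwa [map_ne_zero]))
    rw [map_add] at e3
    have : a ^ 2 + a * b + b ^ 2 = 0 := mul_left_cancel₀ hc0 (by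
      linear_combination a * b * e3 - (a * b + b ^ 2) * e1 - (a * b + a ^ 2) * e2)
    linear_combination (b - a) * this
  have hA' := hA
  rw [card_pst T h.le, card_U T, hD2] at hA
  obtain ⟨k, hk⟩ := (even_q_iff hF).2 h2
  have hq2 : q ^ 2 = q * q := pow_two q
  by_cases hW0 : Ws T H = ⊥
  · have := Nat.le_of_dvd (by omega) h1
    rw [hW0, AddSubgroup.card_bot] at hA
    have : 4 * q ≤ q * q := Nat.mul_le_mul_right _ (by omega)
    omega
  obtain ⟨a, ha, ha0⟩ := exists_ne_zero_of_ne_bot hW0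
  have h3 := card_le_of_cube fun b hb => hW a ha b hb ha0
  have h4 : Nat.card (TT H e) ∣ 9 := card_TT_dvd h0 fun g hg t ht0 ht => by
    have e1 := hN g hg t ht0 ht
    have e2 := hW a ha _ (Ws_mul T h.le hg ht ha) ha0 (by simp [ht0, ha0])
    field_simp at e2
    linear_combination (-t ^ 6) * e2 + ((t * σ t) ^ 5 + (t * σ t) ^ 4 + (t * σ t) ^ 3 +
      (t * σ t) ^ 2 + (t * σ t) + 1) * e1
  have h5 := h.card_eq he h0
  rw [card_pst T h.le, card_U T, hD2] at h5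
  obtain ⟨rfl, e1, e2⟩ := num_D2 hq hk h3 h1 h4 hA
  rw [e1, e2] at h5
  have : Fact (Nat.Prime 19) := ⟨by norm_num⟩
  obtain ⟨S, x, k, n, -, -, h9, h10, -, h11⟩ := syl_odd h.nd h.fin (r := 19) (by norm_num)
    (by norm_num) h.le (M := 1944) (h5.trans (by norm_num)) (by norm_num)
  have : ∀ k < 1945, 1944 % k = 0 → k % 2 = 1 → 1944 / k % 19 ≠ 1 := by decide +kernel
  have hk0 : 0 < k := by omega
  exact this k (Nat.lt_succ_of_le (Nat.le_of_dvd (by norm_num) ⟨n, h9.symm⟩))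
    (by rw [← h9, Nat.mul_mod_right]) (by omega) (by rw [← h9, Nat.mul_div_cancel_left _ hk0, h10])

omit [Finite V] [FiniteDimensional F V] in
theorem Hy.D_bot (h : Hy P H) {e : V} (he : P.Sing e) (h0 : e ≠ 0) (hD : P.Dv H he = ⊥) {x : V}
    (hx : P.Sing x) (hx0 : x ≠ 0) : P.Dv H hx = ⊥ := by_contra fun hn => by
  obtain ⟨c, hc, hc0⟩ := exists_ne_zero_of_ne_bot hn
  obtain ⟨d, hd, hd0⟩ := h.D_ne hx hx0 hc hc0 he h0
  exact hd0 (by simpa [hD] using hd)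

omit [Finite V] in
theorem comm_mem_U {e v f : V} (T : Fr3 P e v f) {g k : P.Iso} (hg : g ∈ P.EG) (hk : k ∈ P.EG)
    (hg' : g ∈ P.pst e) (hk' : k ∈ P.pst e) : (k * g)⁻¹ * (g * k) ∈ P.U e := by
  obtain ⟨s, -, hs⟩ := hg'
  obtain ⟨t, -, ht⟩ := hk'
  refine fr_mem_U T (det_of_mem (mul_mem (inv_mem (mul_mem hk hg)) (mul_mem hg hk))) ?_
  rw [mul_smul, inv_smul_eq_iff, mul_smul, mul_smul, hs, ht, act_smul, act_smul, hs, ht, smul_comm]

theorem Hy.even_D0 (h : Hy P H) (h2 : (2 : F) = 0) (hq : 3 ≤ q) {e v f : V} (T : Fr3 P e v f)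
    (hD : P.Dv H T.hyp.left = ⊥)
    (hA : q ^ 2 - 1 ≤ Nat.card (H ⊓ P.pst e : Subgroup P.Iso)) : False := by
  have he := T.hyp.left
  have h0 := T.hyp.left_ne_zero
  have hU : ∀ x, P.Sing x → x ≠ 0 → ∀ u ∈ H, u ∈ P.U x → u = 1 := fun x hx hx0 u hu hu' => by
    obtain ⟨v', f', T'⟩ := fr_of_sing h.nd h.fin hx hx0
    have hD' := h.D_bot he h0 hD hx hx0
    obtain ⟨a, c, hc, rfl⟩ := (fr_U_iff T').1 hu'
    have h1 := Ws_sq T' h2 ((mem_Ws T').2 ⟨c, hc, hu⟩)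
    have h3 : a = 0 := by simpa [hD'] using h1
    subst h3
    rw [zero_smul] at hu ⊢
    have h4 : c ∈ P.Dv H hx := ⟨(mem_uFP_lam hF c).2 (by simpa using hc), hu⟩
    rw [show c = 0 by simpa [hD'] using h4, eich_zero]
  have h1 := card_pst T h.le
  rw [show H ⊓ P.U e = ⊥ from eq_bot_iff.2 fun u hu => hU e he h0 u hu.1 hu.2, Subgroup.card_bot,
    one_mul] at h1
  have h3 : Nat.card (TT H e) = q ^ 2 - 1 :=
    (Nat.le_of_dvd (sq_sub_pos hF) (card_TT_dvd' H e)).antisymm (h1 ▸ hA)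
  have h4 : TT H e = ⊤ := Subgroup.eq_top_of_card_eq _ (by rw [h3, Nat.card_units, u_card hF])
  have hev := (even_q_iff hF).2 h2
  have hodd : Odd (Nat.card H) := by
    rw [h.card_eq he h0, h1, h3]
    exact (hev.pow_of_ne_zero (by norm_num)).add_one.mul
      (Nat.Even.sub_odd (Nat.one_le_pow _ _ (by omega)) (hev.pow_of_ne_zero (by norm_num)) odd_one)
  obtain ⟨r, hr, hrq⟩ := Nat.exists_prime_and_dvd (show q - 1 ≠ 1 by omega)
  have := Fact.mk hr
  obtain ⟨t, ht⟩ := exists_prime_orderOf_dvd_card' (G := Fˣ) r (by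
    rw [Nat.card_units, u_card hF]
    exact hrq.trans ⟨q + 1, by simpa [mul_comm] using Nat.pow_two_sub_pow_two q 1⟩)
  obtain ⟨x, hx, hxt⟩ : t ∈ TT H e := h4 ▸ Subgroup.mem_top t
  have htr : (t : F) ^ r = 1 := by rw [← ht, ← Units.val_pow_eq_pow_val, pow_orderOf_eq_one]; rfl
  have hxr : x ^ r = 1 := hU e he h0 _ (pow_mem hx r)
    (fr_mem_U T (det_of_mem (h.le (pow_mem hx r))) (by rw [pow_act hxt, htr, one_smul]))
  have hN : (t : F) * σ t ≠ 1 := fun h5 => by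
    obtain ⟨m, hm⟩ := hrq
    rw [frobq_apply, show q = r * m + 1 by omega, pow_succ, pow_mul, htr, one_pow, one_mul] at h5
    have h6 : (t : F) = 1 := sub_eq_zero.1 (mul_self_eq_zero.1 (by
      linear_combination h5 + (1 - t) * h2))
    rw [show t = 1 from Units.ext h6, orderOf_one] at ht
    exact hr.one_lt.ne ht
  obtain ⟨f', hf, hf0, hne, hxf⟩ : ∃ f', P.Sing f' ∧ f' ≠ 0 ∧ (F ∙ f') ≠ (F ∙ e) ∧ x ∈ P.pst f' := by
    by_contra hn
    have h5 := ncard_modEq hxr (smul_mem_pts (act_mem_sing0 x))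
    rw [card_pts h.nd h.fin, show {p | p ∈ pts F (P.sing0 Set.univ) ∧ x • p = p} = {F ∙ e} from
      Set.ext fun p => ⟨by
        rintro ⟨⟨y, hy, rfl⟩, h6⟩
        exact by_contra fun h7 => hn ⟨y, hy.2.2, hy.2.1, h7, smul_pt_eq_iff.1 h6⟩, by
        rintro rfl
        exact ⟨mem_pts ⟨trivial, h0, he⟩, smul_pt_eq_iff.2 ⟨t, t.ne_zero, hxt⟩⟩⟩,
      Set.ncard_singleton] at h5
    have h6 := hr.dvd_of_dvd_pow (by simpa using (Nat.modEq_iff_dvd' (by omega)).1 h5.symm :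
      r ∣ q ^ 3)
    exact hr.one_lt.ne' (Nat.dvd_one.1 (by
      simpa [show q - (q - 1) = 1 by omega] using Nat.dvd_sub h6 hrq))
  have two : ∀ y, P.Sing y → y ≠ 0 → x ∈ P.pst y → (F ∙ y) ≠ (F ∙ f') → (F ∙ y) = F ∙ e := by
    rintro y hy hy0 ⟨s, -, hs⟩ h5
    obtain ⟨s', hs0, hs'⟩ := hxf
    by_contra h6
    have e1 := B_smul_smul x e f'
    have e2 := B_smul_smul x y f'
    have e3 := B_smul_smul x y e
    rw [hxt, hs', B_smul_left, B_smul_right, ← mul_assoc] at e1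
    rw [hs, hs', B_smul_left, B_smul_right, ← mul_assoc] at e2
    rw [hs, hxt, B_smul_left, B_smul_right, ← mul_assoc] at e3
    have e4 := (mul_eq_right₀ (mt (span_eq_of_perp h.nd h.fin hf hf0 he h0) hne.symm)).1 e1
    have e5 := (mul_eq_right₀ (mt (span_eq_of_perp h.nd h.fin hf hf0 hy hy0) h5)).1 e2
    have e6 := (mul_eq_right₀ (mt (span_eq_of_perp h.nd h.fin he h0 hy hy0) h6)).1 e3
    exact hN (by rwa [mul_right_cancel₀ (by simpa using hs0) (e4.trans e5.symm)] at e6 ⊢)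
  obtain ⟨k, hk, hke⟩ := h.tr e f' he h0 hf hf0
  have hkE : k • (F ∙ e) = F ∙ f' := (smul_pt k e).trans (span_eq_iff'.2 hke)
  have hxE : x • (F ∙ e) = F ∙ e := smul_pt_eq_iff.2 ⟨t, t.ne_zero, hxt⟩
  have hz : k⁻¹ * x * k ∈ H := mul_mem (mul_mem (inv_mem hk) hx) hk
  have hzE : (k⁻¹ * x * k) • (F ∙ e) = F ∙ e := by
    rw [mul_smul, mul_smul, hkE, smul_pt_eq_iff.2 hxf, inv_smul_eq_iff, hkE]
  have hcomm := inv_mul_eq_one.1 (hU e he h0 _ (mul_mem (inv_mem (mul_mem hz hx)) (mul_mem hx hz))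
    (comm_mem_U T (h.le hx) (h.le hz) (smul_pt_eq_iff.1 hxE) (smul_pt_eq_iff.1 hzE)))
  have h5 : (k⁻¹ * x * k) • (F ∙ f') = F ∙ f' := by_contra fun h5 => hne (by
    have h6 := two _ (hf.act (k⁻¹ * x * k)) (act_ne_zero _ hf0) (smul_pt_eq_iff.1 (by
      rw [← smul_pt, ← mul_smul, ← hcomm, mul_smul, smul_pt_eq_iff.2 hxf])) (by rwa [← smul_pt])
    rwa [← smul_pt, ← hzE, smul_left_cancel_iff] at h6)
  have h6 : k • (F ∙ f') = F ∙ e := (smul_pt k f').trans (two _ (hf.act k) (act_ne_zero _ hf0)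
    (smul_pt_eq_iff.1 (by rwa [mul_smul, mul_smul, inv_smul_eq_iff, smul_pt] at h5))
    (by rw [← smul_pt, ← hkE, Ne, smul_left_cancel_iff, hkE]; exact hne))
  obtain ⟨m, hm⟩ := hodd
  have h7 : k ^ (2 * m + 1) = 1 := by
    rw [← hm]; exact congrArg Subtype.val (pow_card_eq_one' (x := (⟨k, hk⟩ : H)))
  have h8 : (k ^ 2) ^ m ∈ stabilizer P.Iso (F ∙ e) := pow_mem (by
    rw [mem_stabilizer_iff, pow_two, mul_smul, hkE, h6]) m
  rw [pow_succ', pow_mul] at h7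
  exact hne (by rw [← hkE, ← mem_stabilizer_iff.1 h8, ← mul_smul, h7, one_smul,
    mem_stabilizer_iff.1 h8])

end Cfsg.Agent.U3
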