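import Cfsg.Agent.GLn.TwoTrans
import Cfsg.Agent.GLn.PronAbs

/-! Group theoretic tools for the minimal index of `SU₃(q)`. -/

set_option autoImplicit false

open Finset MulAction Subgroup

namespace Cfsg.Agent.U3

open Cfsg Cfsg.Agent.CharLib Cfsg.Agent.GLn

/-- A subgroup of small index in a doubly transitive group is transitive. -/
theorem trans_of_index {G : Type*} [Group G] [Finite G] {X : Type*} [Finite X] [Nontrivial X]
    [MulAction G X] [IsMultiplyPretransitive G X 2] (H : Subgroup G) (h : H.index < Nat.card X) :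
    IsPretransitive H X := by
  classical
  have := Fintype.ofFinite G
  have := Fintype.ofFinite X
  have := isPretransitive_of_is_two_pretransitive (G := G) (α := X)
  by_contra hn
  have hχ := isIrr_perm_sub_one G X
  set χ : G → ℂ := fun g => (Nat.card (fixedBy X g) : ℂ) - 1 with hχd
  have hπ : IsCharacter G (indFun H fun _ => 1) := isChar_indFun H isChar_one
  have h1 : classInner (indFun H fun _ => (1 : ℂ)) χ ≠ 0 := by
    rw [inner_indFun_left H _ (isChar_classFun (isChar_of_irr hχ)), classInner]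
    refine mul_ne_zero (inv_ne_zero card_ne_zero) fun h0 => hn ?_
    have h2 := sum_card_fixedBy_eq_card_orbits_mul_card_group H X
    have h3 : ∑ g : H, (Fintype.card (fixedBy X g) : ℂ) = Fintype.card H := by
      rw [← sub_eq_zero, ← h0]
      simp only [hχd, map_sub, map_natCast, map_one, one_mul, sum_sub_distrib, sum_const, card_univ,
        nsmul_eq_mul, mul_one, ← Nat.card_eq_fintype_card]
      rfl
    have h4 : ∑ g : H, Fintype.card (fixedBy X g) = Fintype.card H := by exact_mod_cast h3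
    rw [h4] at h2
    have h5 : Fintype.card (Quotient (orbitRel H X)) = 1 :=
      Nat.eq_of_mul_eq_mul_right Fintype.card_pos (by rw [← h2, one_mul])
    rw [pretransitive_iff_subsingleton_quotient]
    exact Fintype.card_le_one_iff_subsingleton.1 h5.le
  have h2 := isChar_sub_of_inner_ne_zero hπ hχ h1
  have h3 : classInner χ (fun _ => 1) = 0 := by
    have h4 := congrArg (Nat.cast : ℕ → ℂ) (sum_card_fixedBy_of_trans G X)
    rw [Nat.cast_sum] at h4
    simp only [classInner, hχd, map_one, mul_one, sum_sub_distrib, h4, sum_const, card_univ,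
      nsmul_eq_mul, ← Nat.card_eq_fintype_card, sub_self, mul_zero]
  have h4 : classInner (indFun H (fun _ => (1 : ℂ)) - χ) (fun _ => 1) ≠ 0 := by
    rw [CharLib.inner_sub_left, h3, sub_zero, inner_indFun_left H _ (isChar_classFun isChar_one),
      inner_irr_self isIrr_one]
    exact one_ne_zero
  have h5 := degree_le_of_inner_ne_zero h2 isIrr_one h4
  simp only [Pi.sub_apply, indFun_one, hχd, fixedBy_one_eq_univ, Nat.card_univ, mul_one,
    Complex.sub_re, Complex.natCast_re, Complex.one_re] at h5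
  have h6 : (H.index : ℝ) < Nat.card X := by exact_mod_cast h
  linarith

theorem ncard_modEq {G Ω : Type*} [Group G] [Finite Ω] [MulAction G Ω] {u : G} {p : ℕ}
    [Fact p.Prime] (hu : u ^ p = 1) {S : Set Ω} (hS : ∀ x ∈ S, u • x ∈ S) :
    S.ncard ≡ {x | x ∈ S ∧ u • x = x}.ncard [MOD p] := by
  classical
  have := Fintype.ofFinite Ω
  let f : Function.End S := fun x => ⟨u • x.1, hS _ x.2⟩
  have e : ∀ (n : ℕ) (x : S), ((f ^ n) x).1 = u ^ n • x.1 := fun n => by
    induction n with
    | zero => intro x; rw [pow_zero, pow_zero, one_smul]; rfl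
    | succ n ih => intro x; rw [pow_succ, pow_succ, mul_smul]; exact ih (f x)
  have := Equiv.Perm.card_fixedPoints_modEq (f := f) (p := p) (n := 1)
    (funext fun x => Subtype.ext (by rw [pow_one, e, hu, one_smul]; rfl))
  rw [← Nat.card_eq_fintype_card, ← Nat.card_eq_fintype_card, Nat.card_coe_set_eq,
    Nat.card_coe_set_eq, ← Set.ncard_image_of_injective _ Subtype.val_injective] at this
  convert this using 2
  ext x
  exact ⟨fun h => ⟨⟨x, h.1⟩, Subtype.ext h.2, rfl⟩, by
    rintro ⟨y, h, rfl⟩; exact ⟨y.2, congrArg Subtype.val h⟩⟩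

theorem exists_fix {G Ω : Type*} [Group G] [Finite Ω] [MulAction G Ω] {u : G} {p : ℕ}
    [Fact p.Prime] (hu : u ^ p = 1) {S : Set Ω} (hS : ∀ x ∈ S, u • x ∈ S) (h : ¬ p ∣ S.ncard) :
    ∃ x ∈ S, u • x = x := by
  by_contra hn
  have h1 := ncard_modEq hu hS
  rw [show {x | x ∈ S ∧ u • x = x} = ∅ from Set.eq_empty_of_forall_notMem fun x hx =>
    hn ⟨x, hx⟩, Set.ncard_empty] at h1
  exact h ((Nat.modEq_zero_iff_dvd).1 h1)

/-- If every point is the unique fixed point of an element of order `p`, the action is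
transitive. -/
theorem orbit_eq_of_unique {G Ω : Type*} [Group G] [Finite Ω] [MulAction G Ω] {p : ℕ}
    [hp : Fact p.Prime] {S : Set Ω} (hS : ∀ g : G, ∀ x ∈ S, g • x ∈ S)
    (h : ∀ x ∈ S, ∃ u : G, u ^ p = 1 ∧ ∀ y ∈ S, u • y = y ↔ y = x) {x : Ω} (hx : x ∈ S) :
    orbit G x = S := by
  have h0 : orbit G x ⊆ S := by rintro _ ⟨g, rfl⟩; exact hS g x hx
  refine h0.antisymm fun y hy => by_contra fun hn => ?_
  have ho : ∀ u : G, ∀ z ∈ orbit G x, u • z ∈ orbit G x := by
    rintro u _ ⟨g, rfl⟩; exact ⟨u * g, mul_smul _ _ _⟩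
  obtain ⟨u, hu, hu'⟩ := h x hx
  obtain ⟨w, hw, hw'⟩ := h y hy
  have h1 := ncard_modEq hu (ho u)
  rw [show {z | z ∈ orbit G x ∧ u • z = z} = {x} from Set.ext fun z =>
    ⟨fun hz => (hu' z (h0 hz.1)).1 hz.2, fun hz => by
      rw [Set.mem_singleton_iff.1 hz]; exact ⟨mem_orbit_self x, (hu' x hx).2 rfl⟩⟩,
    Set.ncard_singleton] at h1
  obtain ⟨z, hz, hz'⟩ := exists_fix hw (ho w) fun hd => hp.out.one_lt.ne'
    (Nat.dvd_one.1 ((h1.dvd_iff dvd_rfl).1 hd))
  exact hn ((hw' z (h0 hz)).1 hz' ▸ hz)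

/-- The Riemann–Hurwitz count for a group in which elements outside the kernel have two fixed
points. -/
theorem rh_count {K X : Type*} [Group K] [Finite K] [Finite X] [MulAction K X] (K0 : Subgroup K)
    (h0 : ∀ g ∈ K0, ∀ x : X, g • x = x) (h2 : ∀ g, g ∉ K0 → Nat.card (fixedBy X g) = 2) (x0 : X)
    {n : ℕ} (hn : (orbit K x0).ncard = n) (h3 : 3 ≤ n) :
    ∃ s, Nat.card (stabilizer K x0) = Nat.card K0 * s ∧ (s = 1 ∨
      ∃ a b, a ∣ n * s ∧ b ∣ n * s ∧ 2 * a ≤ n * s ∧ 2 * b ≤ n * s ∧ a + b + n = n * s + 2) := by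
  classical
  have := Fintype.ofFinite K
  have := Fintype.ofFinite X
  have hle : ∀ x : X, K0 ≤ stabilizer K x := fun x g hg => h0 g hg x
  have hk : 0 < Nat.card K0 := Nat.card_pos
  let o : orbitRel.Quotient K X → ℕ := fun c => (orbit K c.out).ncard
  have hdiv : ∀ x : X, K0.relIndex (stabilizer K x) * (orbit K x).ncard = K0.index := fun x => by
    rw [← index_stabilizer, relIndex_mul_index (hle x)]
  have hst : Nat.card (stabilizer K x0) = Nat.card K0 * K0.relIndex (stabilizer K x0) := by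
    rw [relIndex, ← (K0.subgroupOf (stabilizer K x0)).card_mul_index,
      Nat.card_congr (subgroupOfEquivOfLe (hle x0)).toEquiv]
  set s := K0.relIndex (stabilizer K x0) with hs
  refine ⟨s, hst, ?_⟩
  have hN : K0.index = n * s := by rw [← hdiv x0, hn, mul_comm]
  have hs0 : s ≠ 0 := fun h => by
    rw [h, mul_zero] at hN; exact K0.index_ne_zero_of_finite hN
  by_cases hs1 : s = 1
  · exact Or.inl hs1
  right
  have hX : Fintype.card X = ∑ c, o c := by
    rw [Fintype.card_congr (selfEquivSigmaOrbits K X), Fintype.card_sigma]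
    exact sum_congr rfl fun c _ => by rw [← Nat.card_eq_fintype_card, Nat.card_coe_set_eq]
  have hB := sum_card_fixedBy_eq_card_orbits_mul_card_group K X
  have hK : Fintype.card K = Nat.card K0 * (n * s) := by
    rw [← hN, K0.card_mul_index, Nat.card_eq_fintype_card]
  have hc : #{g : K | g ∈ K0} = Nat.card K0 := by
    rw [Nat.card_eq_fintype_card, Fintype.card_subtype]
  have hc' : #{g : K | g ∉ K0} + Nat.card K0 = Nat.card K0 * (n * s) := by
    rw [← hK, ← hc, add_comm, card_filter_add_card_filter_not, card_univ]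
  rw [← sum_filter_add_sum_filter_not univ (· ∈ K0), sum_congr rfl (g := fun _ => Fintype.card X)
    fun g hg => by
      rw [← Nat.card_eq_fintype_card, show fixedBy X g = Set.univ from
        Set.eq_univ_of_forall (h0 g (mem_filter.1 hg).2), Nat.card_univ, Nat.card_eq_fintype_card],
    sum_congr (s₁ := univ.filter (· ∉ K0)) rfl (g := fun _ => 2) fun g hg => by
      rw [← Nat.card_eq_fintype_card, h2 g (mem_filter.1 hg).2],
    sum_const, sum_const, hc, smul_eq_mul, smul_eq_mul, hK] at hB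
  have hod : ∀ c, o c ∣ n * s := fun c => hN ▸ Dvd.intro_left _ (hdiv c.out)
  have hns : 0 < n * s := Nat.mul_pos (by omega) (by omega)
  have hole : ∀ c, o c ≤ n * s := fun c => Nat.le_of_dvd hns (hod c)
  have hop : ∀ c, 0 < o c := fun c => Nat.pos_of_dvd_of_pos (hod c) hns
  have hsum : ∑ c, (n * s - o c) + 2 = 2 * (n * s) := by
    have h4 : ∑ c, (n * s - o c) + ∑ c, o c = Fintype.card (orbitRel.Quotient K X) * (n * s) := by
      rw [← sum_add_distrib, sum_congr rfl fun c _ => Nat.sub_add_cancel (hole c), sum_const,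
        card_univ, smul_eq_mul]
    refine Nat.eq_of_mul_eq_mul_left hk ?_
    rw [← hX] at h4
    have h5 := congrArg (Nat.card K0 * ·) h4
    nlinarith
  let c0 : orbitRel.Quotient K X := Quotient.mk'' x0
  have hc0 : o c0 = n := by
    rw [← hn]
    exact congrArg Set.ncard (orbit_eq_iff.2 (Quotient.mk_out' (s₁ := orbitRel K X) x0))
  let J := (univ.erase c0).filter fun c => o c ≠ n * s
  have hJ : ∑ c ∈ J, (n * s - o c) + (n * s - n) + 2 = 2 * (n * s) := by
    rw [← hsum, ← sum_erase_add univ _ (mem_univ c0), hc0, sum_filter_of_ne]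
    intro c _ h h'
    exact h (by rw [h', Nat.sub_self])
  have hhalf : ∀ c ∈ J, 2 * o c ≤ n * s := fun c hc => by
    obtain ⟨d, hd⟩ := hod c
    have h4 := (mem_filter.1 hc).2
    rw [hd] at h4 ⊢
    have : d ≠ 1 := fun h => h4 (by rw [h, mul_one])
    have : d ≠ 0 := fun h => by rw [hd, h] at hns; simp at hns
    nlinarith [show 2 ≤ d by omega]
  have hn2 : n * 2 ≤ n * s := Nat.mul_le_mul_left _ (by omega)
  have hup : ∑ c ∈ J, (n * s - o c) ≤ #J * (n * s - 1) :=
    sum_le_card_nsmul _ _ _ fun c _ => Nat.sub_le_sub_left (hop c) _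
  have hlo : #J * (n * s) ≤ ∑ c ∈ J, 2 * (n * s - o c) :=
    card_nsmul_le_sum _ _ _ fun c hc => by have := hhalf c hc; omega
  rw [← mul_sum] at hlo
  have hJ2 : #J = 2 := by
    generalize n * s = N at *
    rcases Nat.lt_trichotomy #J 2 with h | h | h
    · have : #J * (N - 1) ≤ 1 * (N - 1) := Nat.mul_le_mul_right _ (by omega)
      omega
    · exact h
    · have : 3 * N ≤ #J * N := Nat.mul_le_mul_right _ h
      omega
  obtain ⟨a, b, hab, hJe⟩ := card_eq_two.1 hJ2
  have ha := hhalf a (by simp [hJe])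
  have hb := hhalf b (by simp [hJe])
  rw [hJe, sum_pair hab] at hJ
  exact ⟨o a, o b, hod a, hod b, ha, hb, by omega⟩

/-- A Sylow subgroup of prime order and its normaliser. -/
theorem exists_syl {G : Type*} [Group G] [Finite G] {r M : ℕ} [hr : Fact r.Prime]
    (h : Nat.card G = r * M) (hM : ¬ r ∣ M) : ∃ (S : Sylow r G) (x : G) (k n : ℕ),
      (S : Subgroup G) = zpowers x ∧ orderOf x = r ∧ k * n = M ∧ n % r = 1 ∧
      Nat.card (normalizer (S : Set G)) = r * k := by
  obtain ⟨x, hx⟩ := exists_prime_orderOf_dvd_card' (G := G) r (h ▸ dvd_mul_right _ _)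
  have hM0 : M ≠ 0 := fun h0 => hM (h0 ▸ dvd_zero _)
  have hc : Nat.card (zpowers x) = r ^ (Nat.card G).factorization r := by
    rw [Nat.card_zpowers, hx, h, Nat.factorization_mul hr.out.ne_zero hM0, Finsupp.add_apply,
      hr.out.factorization_self, Nat.factorization_eq_zero_of_not_dvd hM, pow_one]
  let S := Sylow.ofCard _ hc
  obtain ⟨k, hk⟩ : r ∣ Nat.card (normalizer (S : Set G)) := by
    have := card_dvd_of_le (le_normalizer (H := (S : Subgroup G)))
    rwa [show (S : Subgroup G) = zpowers x from rfl, Nat.card_zpowers, hx] at this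
  refine ⟨S, x, k, Nat.card (Sylow r G), rfl, hx, ?_, ?_, hk⟩
  · refine Nat.eq_of_mul_eq_mul_left hr.out.pos ?_
    rw [← h, ← mul_assoc, ← hk, S.card_eq_index_normalizer, card_mul_index]
  · rw [card_sylow_modEq_one r G, Nat.mod_eq_of_lt hr.out.one_lt]

/-- Burnside's transfer theorem and the Frattini argument. -/
theorem dvd_card_normalizer {G : Type*} [Group G] [Finite G] {r l : ℕ} [hr : Fact r.Prime]
    [hl : Fact l.Prime] (hrl : r ≠ l) (S : Sylow r G)
    (hS : normalizer (S : Set G) ≤ centralizer (S : Set G)) (Q : Sylow l G) :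
    Nat.card S ∣ Nat.card (normalizer (Q : Set G)) := by
  have h1 := MonoidHom.ker_transferSylow_isComplement' S hS
  set M := (MonoidHom.transferSylow S hS).ker
  have h2 : (Q : Subgroup G) ≤ M := fun g hg => by
    obtain ⟨a, ha⟩ := Q.isPGroup' ⟨g, hg⟩
    obtain ⟨b, hb⟩ := S.isPGroup' (MonoidHom.transferSylow S hS g)
    have h3 : MonoidHom.transferSylow S hS g ^ l ^ a = 1 := by
      rw [← map_pow, show g ^ l ^ a = 1 from congrArg Subtype.val ha, map_one]
    exact orderOf_eq_one_iff.1 (Nat.eq_one_of_dvd_coprimes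
      (Nat.coprime_pow_primes b a hr.out hl.out hrl) (orderOf_dvd_of_pow_eq_one hb)
      (orderOf_dvd_of_pow_eq_one h3))
  have h3 := Q.normalizer_sup_eq_top' h2
  rw [← h1.symm.index_eq_card, ← relIndex_top_right, ← h3, relIndex_sup_right]
  exact relIndex_dvd_card _ _

end Cfsg.Agent.U3
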