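import Cfsg.Agent.Forms.RegSU3
import Cfsg.Agent.Polar.ULoc
import Cfsg.Agent.U3.Grp

/-! Frames, points and point stabilizers of three-dimensional unitary spaces. -/

set_option autoImplicit false

open Module

namespace Cfsg.Agent.U3

open Cfsg.Agent.Polar Cfsg.Agent.Polar.PQ Cfsg.Agent.Forms Cfsg.Agent.Forms.RegCl
open scoped Pointwise

variable {F : Type*} [Field F] [Fintype F] {q : ℕ} {hF : Fintype.card F = q ^ 2}
variable {V : Type*} [AddCommGroup V] [Module F V] {P : PQ (uFP hF) V}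

local notation "σ" => frobq hF

section Fr

variable {e v f : V} (T : Fr3 P e v f)
include T

theorem fr_B (X Y W X' Y' W' : F) :
    P.B (X • e + Y • v + W • f) (X' • e + Y' • v + W' • f) = X * σ W' + Y * σ Y' + W * σ X' := by
  simp only [map_add, map_smul, LinearMap.add_apply, LinearMap.smul_apply, B_smul_right,
    T.hyp.left.B_self, T.hyp.right.B_self, T.ve, T.vf, T.hyp.pair, T.hyp.pair', B_swap_zero T.ve,
    B_swap_zero T.vf, T.vv, uFP_eps, smul_eq_mul]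
  ring

theorem fr_Be (X Y W : F) : P.B (X • e + Y • v + W • f) e = W := by
  simpa using fr_B T X Y W 1 0 0

theorem fr_Bv (X Y W : F) : P.B (X • e + Y • v + W • f) v = Y := by
  simpa using fr_B T X Y W 0 1 0

theorem fr_Bf (X Y W : F) : P.B (X • e + Y • v + W • f) f = X := by
  simpa using fr_B T X Y W 0 0 1

theorem fr_exists (x : V) : ∃ X Y W : F, x = X • e + Y • v + W • f := by
  obtain ⟨a, ha⟩ := T.span _ (T.hyp.hproj_mem x)
  exact ⟨_, a, _, by rw [← ha]; exact P.hyp_decomp e f x⟩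

theorem fr_inj {X Y W X' Y' W' : F} (h : X • e + Y • v + W • f = X' • e + Y' • v + W' • f) :
    X = X' ∧ Y = Y' ∧ W = W' :=
  ⟨by rw [← fr_Bf T X Y W, h, fr_Bf T], by rw [← fr_Bv T X Y W, h, fr_Bv T],
    by rw [← fr_Be T X Y W, h, fr_Be T]⟩

theorem fr_coord (x : V) : x = P.B x f • e + P.B x v • v + P.B x e • f := by
  obtain ⟨X, Y, W, rfl⟩ := fr_exists T x
  rw [fr_Be T, fr_Bv T, fr_Bf T]

theorem fr_perp_e {x : V} (hx : P.B x e = 0) : ∃ X Y : F, x = X • e + Y • v :=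
  ⟨_, _, by simpa [hx] using fr_coord T x⟩

theorem fr_perp_v {x : V} (hx : P.B x v = 0) : ∃ X W : F, x = X • e + W • f :=
  ⟨_, _, by simpa [hx] using fr_coord T x⟩

theorem fr_ext {g h : P.Iso} (he : g • e = h • e) (hv : g • v = h • v) (hf : g • f = h • f) :
    g = h := iso_ext fun x => by
  obtain ⟨X, Y, W, rfl⟩ := fr_exists T x
  simp only [smul_add, act_smul, he, hv, hf]

theorem fr_vne : v ≠ 0 := fun h => by simpa [h] using T.vv

theorem fr_det {g : P.Iso} {a₁ a₂ a₃ b₁ b₂ b₃ c₁ c₂ c₃ : F}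
    (he : g • e = a₁ • e + a₂ • v + a₃ • f) (hv : g • v = b₁ • e + b₂ • v + b₃ • f)
    (hf : g • f = c₁ • e + c₂ • v + c₃ • f) : (P.det g : F) =
      a₁ * b₂ * c₃ - a₁ * c₂ * b₃ - b₁ * a₂ * c₃ + b₁ * c₂ * a₃ + c₁ * a₂ * b₃ - c₁ * b₂ * a₃ := by
  have hli : LinearIndependent F ![e, v, f] := by
    rw [Fintype.linearIndependent_iff]
    intro c hc i
    rw [Fin.sum_univ_three] at hc
    obtain ⟨h1, h2, h3⟩ := fr_inj T (X' := 0) (Y' := 0) (W' := 0) (hc.trans (by simp))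
    fin_cases i <;> assumption
  let b : Basis (Fin 3) F V := Basis.mk hli fun x _ => by
    obtain ⟨X, Y, W, rfl⟩ := fr_exists T x
    exact add_mem (add_mem (Submodule.smul_mem _ _ (Submodule.subset_span ⟨0, rfl⟩))
      (Submodule.smul_mem _ _ (Submodule.subset_span ⟨1, rfl⟩)))
      (Submodule.smul_mem _ _ (Submodule.subset_span ⟨2, rfl⟩))
  have h0 : b 0 = e := by simp [b]
  have h1 : b 1 = v := by simp [b]
  have h2 : b 2 = f := by simp [b]
  rw [smul_def, ← h0, ← h1, ← h2] at he hv hf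
  rw [coe_det, ← LinearMap.det_toMatrix b, Matrix.det_fin_three]
  simp [LinearMap.toMatrix_apply, he, hv, hf]

theorem fr_swap : Fr3 P f v e :=
  ⟨by simpa using T.hyp.swap, T.vf, T.ve, T.vv, fun x hx => T.span x (by
    rw [mem_perp_pair] at hx ⊢; exact hx.symm)⟩

/-- Two orthogonal singular vectors are proportional. -/
theorem fr_sing_perp {x : V} (hx : P.Sing x) (h : P.B x e = 0) : ∃ a : F, x = a • e := by
  obtain ⟨X, Y, rfl⟩ := fr_perp_e T h
  have h1 := fr_B T X Y 0 X Y 0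
  simp only [zero_smul, add_zero, hx.B_self, map_zero, mul_zero, zero_mul, zero_add] at h1
  have : Y = 0 := by simpa using h1.symm
  exact ⟨X, by simp [this]⟩

theorem fr_act {g : P.Iso} (hg : P.det g = 1) {t : F} (ht : g • e = t • e) :
    t ≠ 0 ∧ ∃ b : F, g • v = b • e + (σ t / t) • v := by
  have ht0 : t ≠ 0 := fun h => act_ne_zero g T.hyp.left_ne_zero (by rw [ht, h, zero_smul])
  have hs : σ t ≠ 0 := by simpa using ht0
  have h1 := B_smul_smul g v e
  have h2 := B_smul_smul g f e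
  rw [ht, B_smul_right] at h1 h2
  rw [T.ve] at h1
  rw [T.hyp.pair', uFP_eps] at h2
  obtain ⟨X, Y, hv⟩ := fr_perp_e T ((mul_eq_zero.1 h1).resolve_left hs)
  have h3 := fr_det T (a₁ := t) (a₂ := 0) (a₃ := 0) (b₁ := X) (b₂ := Y) (b₃ := 0) (by simp [ht])
    (by simp [hv]) (fr_coord T (g • f))
  rw [hg, Units.val_one] at h3
  refine ⟨ht0, X, ?_⟩
  rw [hv, show σ t / t = Y by field_simp; linear_combination σ t * h3 + t * Y * h2]

theorem fr_mem_U {g : P.Iso} (hg : P.det g = 1) (he : g • e = e) : g ∈ P.U e := by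
  obtain ⟨-, b, hb⟩ := fr_act T hg (t := 1) (by rw [he, one_smul])
  refine ⟨he, fun x hx => ?_⟩
  obtain ⟨X, Y, rfl⟩ := fr_perp_e T hx
  exact ⟨Y * b, by rw [smul_add, act_smul, act_smul, he, hb, map_one, div_one]; module⟩

theorem fr_U_iff {g : P.Iso} :
    g ∈ P.U e ↔ ∃ a c : F, c + σ c = a * σ a ∧ g = P.eich e (a • v) c := by
  refine ⟨fun h => ?_, by rintro ⟨a, c, -, rfl⟩; exact eich_mem_U _ _ _⟩
  obtain ⟨w, hw, c, hc, rfl⟩ := T.hyp.mem_U_iff.1 h
  obtain ⟨a, rfl⟩ := T.span w hw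
  exact ⟨a, c, by simpa [T.vv, mul_comm] using u_QEq_iff.1 hc.val, rfl⟩

theorem fr_eich_v {a c : F} (h : c + σ c = a * σ a) : P.eich e (a • v) c • v = v - σ a • e := by
  rw [T.eq_v, T.acte h]; module

end Fr

section Ex

variable [FiniteDimensional F V] (hP : P.ND) (h3 : finrank F V = 3)
include hP h3

theorem fr_of_hyp {e f : V} (hf : P.Hyp e f) : ∃ v, Fr3 P e v f := by
  have h1 := hf.finrank_perp
  have : Nontrivial (P.perp {e, f}) := Module.nontrivial_of_finrank_pos (R := F) (by omega)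
  obtain ⟨θ, hθ⟩ := exists_trace_one hF
  obtain ⟨v, hv⟩ := u_exists_QEq (hf.emb.nd hP) θ
  have h2 : P.B v v = 1 := (u_QEq_iff.1 hv).symm.trans hθ
  have hv0 : v ≠ 0 := fun h => by simp [h] at h2
  refine ⟨v, hf, (mem_perp_pair.1 v.2).1, (mem_perp_pair.1 v.2).2, h2, fun x hx => ?_⟩
  obtain ⟨a, ha⟩ := (finrank_eq_one_iff_of_nonzero' (K := F) v hv0).1 (by omega) ⟨x, hx⟩
  exact ⟨a, (congrArg Subtype.val ha).symm⟩

theorem fr_of_sing {e : V} (he : P.Sing e) (h0 : e ≠ 0) : ∃ v f, Fr3 P e v f := by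
  obtain ⟨f, hf⟩ := hP.exists_hyp he h0
  obtain ⟨v, hv⟩ := fr_of_hyp hP h3 hf
  exact ⟨v, f, hv⟩

theorem fr_of_perp {e v : V} (he : P.Sing e) (h0 : e ≠ 0) (hve : P.B v e = 0)
    (hv : P.B v v = 1) : ∃ f, Fr3 P e v f := by
  obtain ⟨y, hy⟩ := hP.exists_eq h0 1
  have hev := B_swap_zero hve
  obtain ⟨f, hf, a, b, hab⟩ := exists_hyp_of_ne (y := y - P.B y v • v) he (by
    rw [map_sub, B_smul_right, hev, hy]; simp)
  have hvf : P.B v f = 0 := B_swap_zero (by simp [hab, hv, hev])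
  obtain ⟨w, T⟩ := fr_of_hyp hP h3 hf
  obtain ⟨c, hc⟩ := T.span v (mem_perp_pair.2 ⟨hve, hvf⟩)
  have hc0 : c ≠ 0 := fun h => by simp [hc, h] at hv
  refine ⟨f, hf, hve, hvf, hv, fun x hx => ?_⟩
  obtain ⟨d, rfl⟩ := T.span x hx
  exact ⟨d / c, by rw [hc, smul_smul, div_mul_cancel₀ _ hc0]⟩

theorem fr_of_v {v : V} (hv : P.B v v = 1) : ∃ e f, Fr3 P e v f := by
  have h1 := finrank_perp hP (F ∙ v)
  rw [finrank_span_singleton (fun h => by simp [h] at hv), perp_span] at h1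
  obtain ⟨x, hx0, hx⟩ := u_exists_sing (P.res (P.perp {v})) (by omega)
  obtain ⟨f, T⟩ := fr_of_perp hP h3 (e := x) hx (fun h => hx0 (Subtype.ext h))
    (B_swap_zero (mem_perp_singleton.1 x.2)) hv
  exact ⟨_, f, T⟩

omit [FiniteDimensional F V] hP h3 in
theorem exists_norm_vec {v : V} (hv : P.B v v ≠ 0) :
    ∃ c : F, c ≠ 0 ∧ P.B (c • v) (c • v) = 1 := by
  obtain ⟨c, hc⟩ := exists_norm_eq hF (P.B v v)⁻¹ (by rw [map_inv₀, u_fix_B_self])
  refine ⟨c, fun h => ?_, ?_⟩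
  · rw [h, zero_mul] at hc; exact inv_ne_zero hv hc.symm
  · rw [B_smul_left, B_smul_right, ← mul_assoc, hc, inv_mul_cancel₀ hv]

theorem span_eq_of_perp {x y : V} (hx : P.Sing x) (hx0 : x ≠ 0) (hy : P.Sing y) (hy0 : y ≠ 0)
    (h : P.B y x = 0) : (F ∙ y) = F ∙ x := by
  obtain ⟨v, f, T⟩ := fr_of_sing hP h3 hx hx0
  obtain ⟨a, rfl⟩ := fr_sing_perp T hy h
  exact Submodule.span_singleton_smul_eq (IsUnit.mk0 a (left_ne_zero_of_smul hy0)) _

/-- A non-trivial element of `U x` fixes only one singular point. -/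
theorem span_eq_of_U {x y : V} (hx : P.Sing x) (hx0 : x ≠ 0) (hy : P.Sing y) (hy0 : y ≠ 0)
    {u : P.Iso} (hu : u ∈ P.U x) (hu1 : u ≠ 1) (h : u ∈ P.pst y) : (F ∙ y) = F ∙ x := by
  refine span_eq_of_perp hP h3 hx hx0 hy hy0 (by_contra fun hn => hu1 ?_)
  obtain ⟨t, -, ht⟩ := h
  have h1 := B_smul_smul u y x
  rw [ht, hu.1, B_smul_left] at h1
  have h2 : t = 1 := mul_right_cancel₀ hn (by rw [h1, one_mul])
  refine (hyp_of_ne hx hy (B_swap_ne hn)).eq_one_of_mem_U hu ?_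
  rw [act_smul, ht, h2, one_smul]

omit hP h3 in
theorem det_of_mem {g : P.Iso} (hg : g ∈ P.EG) : P.det g = 1 := EG_le_ker_det hg

end Ex

theorem smul_pt (g : P.Iso) (x : V) : g • (F ∙ x) = F ∙ (g • x) := by
  change (g : V ≃ₗ[F] V) • (F ∙ x) = _
  rw [Submodule.smul_span, Set.smul_set_singleton]; rfl

theorem smul_pt_eq_iff {g : P.Iso} {x : V} : g • (F ∙ x) = (F ∙ x) ↔ g ∈ P.pst x := by
  rw [smul_pt, eq_comm]; simpa using span_eq_iff x 1 g

omit [Fintype F] in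
theorem span_eq_iff' {x y : V} : (F ∙ x) = (F ∙ y) ↔ ∃ t : F, t ≠ 0 ∧ x = t • y := by
  rw [eq_comm, Submodule.span_singleton_eq_span_singleton]
  exact ⟨fun ⟨u, hu⟩ => ⟨u, u.ne_zero, hu.symm⟩, fun ⟨t, ht, h⟩ => ⟨Units.mk0 t ht, h.symm⟩⟩

variable (F) in
/-- The points of a set of vectors. -/
def pts (S : Set V) : Set (Submodule F V) := (fun x => F ∙ x) '' S

omit [Fintype F] in
theorem mem_pts {S : Set V} {x : V} (hx : x ∈ S) : (F ∙ x) ∈ pts F S := ⟨x, hx, rfl⟩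

theorem smul_mem_pts {S : Set V} {g : P.Iso} (h : ∀ x ∈ S, g • x ∈ S) :
    ∀ p ∈ pts F S, g • p ∈ pts F S := by
  rintro _ ⟨x, hx, rfl⟩
  exact ⟨g • x, h x hx, (smul_pt g x).symm⟩

theorem act_mem_sing0 (g : P.Iso) : ∀ x ∈ P.sing0 Set.univ, g • x ∈ P.sing0 Set.univ :=
  fun _ hx => ⟨trivial, act_ne_zero g hx.2.1, hx.2.2.act g⟩

theorem act_mem_perp {g : P.Iso} {v : V} (hg : g ∈ P.pst v) {x : V} (hx : P.B x v = 0) :
    P.B (g • x) v = 0 := by
  obtain ⟨t, -, ht⟩ := inv_mem hg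
  rw [B_act_left, ht, B_smul_right, hx, mul_zero]

theorem sq_sub_pos (hF : Fintype.card F = q ^ 2) : 0 < q ^ 2 - 1 := by
  have := two_le_q hF
  have : 2 ^ 2 ≤ q ^ 2 := Nat.pow_le_pow_left this 2
  omega

section Cnt

variable [Finite V] (hP : P.ND) (h3 : finrank F V = 3)
include hP h3

theorem card_pts : (pts F (P.sing0 Set.univ)).ncard = q ^ 3 + 1 := by
  have h1 := ptcard (F := F) (sing0_univ_closed (P := P))
  have h2 := ncard_sing0_add_one (P := P)
  have h4 := ((u_count 3 V P hP h3).2 (by decide)).1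
  have h5 := sq_sub_pos hF
  have h6 := two_le_q hF
  rw [u_card hF] at h1
  rw [← h2, h1] at h4
  obtain ⟨m, hm⟩ : ∃ m, q ^ 2 = m + 1 := ⟨q ^ 2 - 1, by omega⟩
  rw [hm, Nat.add_sub_cancel] at h4 h5
  refine Nat.eq_of_mul_eq_mul_left (Nat.mul_pos (by omega : 0 < q) h5) ?_
  unfold pts
  zify at h4 hm ⊢
  linear_combination h4 + (q ^ 4 + q : ℤ) * hm

theorem card_pts_line {v : V} (hv : P.B v v = 1) :
    (pts F (P.sing0 (P.perp {v}))).ncard = q + 1 := by
  have : FiniteDimensional F V := Module.Finite.of_finite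
  have h0 := finrank_perp hP (F ∙ v)
  rw [finrank_span_singleton (fun h => by simp [h] at hv), perp_span] at h0
  obtain ⟨e, f, T⟩ := fr_of_v hP h3 hv
  have hnd : (P.res (P.perp {v})).ND := fun x hx => by
    obtain ⟨X, W, hx'⟩ := fr_perp_v T (mem_perp_singleton.1 x.2)
    have h1 := hx ⟨e, mem_perp_singleton.2 (B_swap_zero T.ve)⟩
    have h2 := hx ⟨f, mem_perp_singleton.2 (B_swap_zero T.vf)⟩
    have h4 := fr_coord T x
    rw [res_B] at h1 h2
    rw [h1, h2, mem_perp_singleton.1 x.2] at h4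
    exact Subtype.ext (by simpa using h4)
  have h1 := ptcard (F := F) (sing0_closed (P := P) (P.perp {v}))
  have h2 := ncard_sing0_add_one (P := P.res (P.perp {v}))
  have h4 := ((u_count 2 _ _ hnd (by omega)).1 (by decide)).1
  have h5 := sq_sub_pos hF
  have h6 := two_le_q hF
  have h7 : ((P.res (P.perp {v})).sing0 Set.univ).ncard = (P.sing0 (P.perp {v})).ncard := by
    rw [← Set.ncard_image_of_injective _ Subtype.val_injective]
    congr 1
    ext x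
    exact ⟨by rintro ⟨y, hy, rfl⟩; exact ⟨y.2, fun h => hy.2.1 (Subtype.ext h), hy.2.2⟩,
      fun hx => ⟨⟨x, hx.1⟩, ⟨trivial, fun h => hx.2.1 (congrArg Subtype.val h), hx.2.2⟩, rfl⟩⟩
  rw [u_card hF] at h1
  rw [← h2, h7, h1] at h4
  obtain ⟨m, hm⟩ : ∃ m, q ^ 2 = m + 1 := ⟨q ^ 2 - 1, by omega⟩
  have hm' := hm
  rw [hm, Nat.add_sub_cancel] at h4 h5
  refine Nat.eq_of_mul_eq_mul_left (Nat.mul_pos (by omega : 0 < q) h5) ?_
  unfold pts
  zify at h4 hm ⊢
  linear_combination h4 - (m : ℤ) * hm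

end Cnt

end Cfsg.Agent.U3
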