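import Cfsg.Agent.U3.CaseE

/-! The action on a non-degenerate plane in odd characteristic. -/

set_option autoImplicit false

open Module MulAction

namespace Cfsg.Agent.U3

open Cfsg.Agent.Polar Cfsg.Agent.Polar.PQ Cfsg.Agent.Forms Cfsg.Agent.Forms.RegCl
open scoped Pointwise

variable {F : Type*} [Field F] [Fintype F] {q : ℕ} {hF : Fintype.card F = q ^ 2}
variable {V : Type*} [AddCommGroup V] [Module F V] {P : PQ (uFP hF) V}

local notation "σ" => frobq hF

variable (hF) in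
theorem isSquare_of (h2 : (2 : F) ≠ 0) {x : F} (h : σ x = x ∨ x * σ x = 1) : IsSquare x := by
  by_cases hx : x = 0
  · simp [hx]
  obtain ⟨k, hk⟩ := Nat.not_even_iff_odd.1 (mt (even_q_iff hF).1 h2)
  rw [FiniteField.isSquare_iff (fun h => h2 (by
    have := ringChar.spec F 2
    rw [h] at this; exact_mod_cast this.2 dvd_rfl)) hx, hF]
  rcases h with h | h
  · rw [frobq_apply, hk, pow_succ, mul_eq_right₀ hx] at h
    rw [show q ^ 2 / 2 = 2 * k * (k + 1) by rw [hk, Nat.div_eq_iff two_pos]; ring_nf; omega,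
      pow_mul, h, one_pow]
  · rw [frobq_apply, ← pow_succ'] at h
    rw [show q ^ 2 / 2 = (q + 1) * k by rw [hk, Nat.div_eq_iff two_pos]; ring_nf; omega,
      pow_mul, h, one_pow]

variable (P) in
/-- The elements acting as scalars on the span of `e` and `f`. -/
def SC (e f : V) : Subgroup P.Iso where
  carrier := {g | ∃ l : F, l ≠ 0 ∧ g • e = l • e ∧ g • f = l • f}
  one_mem' := ⟨1, one_ne_zero, by simp, by simp⟩
  mul_mem' := by
    rintro g k ⟨s, hs0, hs, hs'⟩ ⟨t, ht0, ht, ht'⟩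
    exact ⟨t * s, mul_ne_zero ht0 hs0, by rw [mul_smul, ht, act_smul, hs, smul_smul],
      by rw [mul_smul, ht', act_smul, hs', smul_smul]⟩
  inv_mem' := by
    rintro g ⟨s, hs0, hs, hs'⟩
    exact ⟨s⁻¹, inv_ne_zero hs0,
      by rw [inv_smul_eq_iff, act_smul, hs, smul_smul, inv_mul_cancel₀ hs0, one_smul],
      by rw [inv_smul_eq_iff, act_smul, hs', smul_smul, inv_mul_cancel₀ hs0, one_smul]⟩

section Fr

variable {e v f : V} (T : Fr3 P e v f)
include T

theorem mem_SC {g : P.Iso} {l : F} (he : g • e = l • e) (hf : g • f = l • f) : g ∈ SC P e f :=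
  ⟨l, fun h => act_ne_zero g T.hyp.left_ne_zero (by rw [he, h, zero_smul]), he, hf⟩

theorem span_eq_of_eig {g : P.Iso} (hg : g ∉ SC P e f) {y z : V} (hy : P.B y v = 0) (hy0 : y ≠ 0)
    (hz : P.B z v = 0) (hz0 : z ≠ 0) {s : F} (h1 : g • y = s • y) (h2 : g • z = s • z) :
    (F ∙ y) = F ∙ z := by
  obtain ⟨X, W, rfl⟩ := fr_perp_v T hy
  obtain ⟨X', W', rfl⟩ := fr_perp_v T hz
  by_cases hd : X * W' - W * X' = 0
  · have : ∃ t : F, X • e + W • f = t • (X' • e + W' • f) := by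
      by_cases h : X' = 0
      · have h' : W' ≠ 0 := fun h' => hz0 (by simp [h, h'])
        refine ⟨W / W', ?_⟩
        match_scalars
        · field_simp; linear_combination hd
        · field_simp
      · refine ⟨X / X', ?_⟩
        match_scalars
        · field_simp
        · field_simp; linear_combination -hd
    obtain ⟨t, ht⟩ := this
    exact span_eq_iff'.2 ⟨t, fun h => hy0 (by rw [ht, h, zero_smul]), ht⟩
  rw [smul_add, act_smul, act_smul] at h1 h2
  refine absurd (mem_SC T (l := s) (smul_right_injective V hd ?_) (smul_right_injective V hd ?_)) hg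
  all_goals simp only [smul_def] at h1 h2 ⊢
  · linear_combination (norm := module) W' • h1 - W • h2
  · linear_combination (norm := module) X • h2 - X' • h1

theorem exists_eig {g : P.Iso} (hg : g ∉ SC P e f) (hv : g ∈ P.pst v) (s : F) :
    ∃ x, P.B x v = 0 ∧ P.B (g • x - s • x) v = 0 ∧ g • x - s • x ≠ 0 := by
  have : ∃ x, P.B x v = 0 ∧ g • x - s • x ≠ 0 := by_contra fun h => by
    push Not at h
    exact hg (mem_SC T (sub_eq_zero.1 (h e (B_swap_zero T.ve)))
      (sub_eq_zero.1 (h f (B_swap_zero T.vf))))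
  obtain ⟨x, hx, h⟩ := this
  exact ⟨x, hx, by simp [hx, act_mem_perp hv hx], h⟩

theorem eq_one_of_D {H : Subgroup P.Iso} (hD : P.Dv H T.hyp.left = ⊥) {u : P.Iso} (hu : u ∈ H)
    (hU : u ∈ P.U e) (hv : u ∈ P.pst v) : u = 1 := by
  obtain ⟨a, c, hc, rfl⟩ := (fr_U_iff T).1 hU
  obtain ⟨s, -, hs⟩ := hv
  rw [fr_eich_v T hc] at hs
  have h1 := (fr_inj T (X := -σ a) (Y := 1) (W := 0) (X' := 0) (Y' := s) (W' := 0)
    (by linear_combination (norm := module) hs)).1
  obtain rfl : a = 0 := by simpa using h1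
  rw [zero_smul] at hu ⊢
  have h4 : c ∈ P.Dv H T.hyp.left := ⟨(mem_uFP_lam hF c).2 (by simpa using hc), hu⟩
  rw [show c = 0 by simpa [hD] using h4, eich_zero]

variable [FiniteDimensional F V] {H : Subgroup P.Iso}

theorem Hy.two_fix (h : Hy P H) (h2 : (2 : F) ≠ 0)
    (hD : ∀ x (hx : P.Sing x), x ≠ 0 → P.Dv H hx = ⊥) {g : P.Iso} (hg : g ∈ H) (hv : g ∈ P.pst v)
    (hs : g ∉ SC P e f) : ∃ y z, (y ≠ 0 ∧ P.B y v = 0) ∧ (z ≠ 0 ∧ P.B z v = 0) ∧
      (F ∙ y) ≠ (F ∙ z) ∧
      ∀ x, x ≠ 0 → P.B x v = 0 → (g ∈ P.pst x ↔ (F ∙ x) = (F ∙ y) ∨ (F ∙ x) = F ∙ z) := by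
  obtain ⟨a, b, he⟩ := fr_perp_v T (act_mem_perp hv (B_swap_zero T.ve))
  obtain ⟨c, d, hf⟩ := fr_perp_v T (act_mem_perp hv (B_swap_zero T.vf))
  obtain ⟨m, hm0, hm⟩ := id hv
  have e0 := plane_det T (h.le hg) hm he hf
  have e1 := B_smul_smul g v v
  have e2 := B_smul_smul g e e
  have e3 := B_smul_smul g e f
  have e4 := B_smul_smul g f e
  have e5 := B_smul_smul g f f
  rw [hm, B_smul_left, B_smul_right, T.vv] at e1
  simp only [he, hf, map_add, map_smul, LinearMap.add_apply, LinearMap.smul_apply, B_smul_right,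
    T.hyp.left.B_self, T.hyp.right.B_self, T.hyp.pair, T.hyp.pair', uFP_eps, smul_eq_mul]
    at e2 e3 e4 e5
  have e6 : a * d - b * c = σ m := mul_left_cancel₀ hm0 (by linear_combination e0 - e1)
  obtain ⟨r, hr⟩ : IsSquare ((a + d) ^ 2 - 4 * (a * d - b * c)) := by
    rw [show (a + d) ^ 2 - 4 * (a * d - b * c) = σ m * ((a + d) * σ (a + d) - 4) by
      rw [← e6, map_add]
      linear_combination (a + d) * (-(d * e3) + b * e5 - a * e4 + c * e2)]
    exact (isSquare_of hF h2 (Or.inr (by rw [frobq_frobq]; linear_combination e1))).mul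
      (isSquare_of hF h2 (Or.inl (by simp [frobq_frobq, mul_comm, map_ofNat])))
  obtain ⟨s, t, hst, hst', hr'⟩ : ∃ s t : F, s + t = a + d ∧ s * t = a * d - b * c ∧ s - t = r :=
    ⟨(a + d + r) / 2, (a + d - r) / 2, by field_simp; ring, by field_simp; linear_combination hr,
      by field_simp; ring⟩
  have CH : ∀ x, P.B x v = 0 → g • (g • x - t • x) = s • (g • x - t • x) := fun x hx => by
    obtain ⟨X, W, rfl⟩ := fr_perp_v T hx
    simp only [smul_add, smul_sub, act_smul, he, hf]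
    match_scalars
    · linear_combination (-(X * a + W * c)) * hst + X * hst'
    · linear_combination (-(X * b + W * d)) * hst + W * hst'
  have CH' : ∀ x, P.B x v = 0 → g • (g • x - s • x) = t • (g • x - s • x) := fun x hx => by
    have := CH x hx
    rw [smul_sub, act_smul] at this ⊢
    simp only [smul_def] at this ⊢
    linear_combination (norm := module) this
  obtain ⟨x₁, p₁, q₁, n₁⟩ := exists_eig T hs hv t
  obtain ⟨x₂, p₂, q₂, n₂⟩ := exists_eig T hs hv s
  have c₁ := CH x₁ p₁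
  have c₂ := CH' x₂ p₂
  have hne : s ≠ t := by
    rintro rfl
    obtain ⟨y, hy⟩ : ∃ y, g • x₁ - s • x₁ = y := ⟨_, rfl⟩
    rw [hy] at q₁ n₁ c₁
    have hs0 : s ≠ 0 := fun h => act_ne_zero g n₁ (by rw [c₁, h, zero_smul])
    have hy' : P.B y y = 0 := by_contra fun h => by
      have f1 := B_smul_smul g y y
      have f2 := B_smul_smul g x₁ y
      rw [c₁, B_smul_left, B_smul_right, ← mul_assoc, mul_eq_right₀ h] at f1
      rw [c₁, sub_eq_iff_eq_add.1 hy, B_smul_right, map_add, LinearMap.add_apply, B_smul_left] at f2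
      exact h (mul_left_cancel₀ hs0 (by linear_combination s * s * f2 - (s * s * P.B x₁ y +
        s * P.B y y) * f1))
    obtain ⟨f', T'⟩ := fr_of_perp h.nd h.fin (u_sing_iff.2 hy') n₁ (B_swap_zero q₁) T.vv
    have hso : s ^ (q ^ 2 - 1) = 1 := hF ▸ FiniteField.pow_card_sub_one_eq_one s hs0
    have f3 := eq_one_of_D T' (hD _ _ n₁) (pow_mem hg (q ^ 2 - 1))
      (fr_mem_U T' (det_of_mem (h.le (pow_mem hg _))) (by rw [pow_act c₁, hso, one_smul]))
      (pow_mem hv _)
    have f4 : ∀ n : ℕ, s • g ^ n • x₁ = s ^ (n + 1) • x₁ + (n * s ^ n) • y := fun n => by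
      induction n with
      | zero => simp
      | succ n ih =>
        rw [pow_succ', mul_smul, ← act_smul, ih, smul_add, act_smul, act_smul, c₁,
          sub_eq_iff_eq_add.1 hy]
        match_scalars <;> ring
    have f5 := f4 (q ^ 2 - 1)
    rw [f3, one_smul, pow_succ, hso, one_mul, mul_one, Nat.cast_sub (Nat.one_le_pow _ _ (by
      have := two_le_q hF; omega)), Nat.cast_pow, cast_q hF] at f5
    exact n₁ (by simpa using f5)
  refine ⟨_, _, ⟨n₁, q₁⟩, ⟨n₂, q₂⟩, fun h1 => ?_, fun x hx0 hx => ⟨?_, ?_⟩⟩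
  · obtain ⟨u, hu, h3⟩ := span_eq_iff'.1 h1
    rw [h3, act_smul, c₂, smul_comm] at c₁
    exact hne (smul_left_injective F (h3 ▸ n₁) c₁).symm
  · rintro ⟨u, -, hu⟩
    have h1 := CH x hx
    rw [hu, ← sub_smul, act_smul, hu, smul_smul, smul_smul] at h1
    rcases mul_eq_zero.1 (show (u - s) * (u - t) = 0 by
      linear_combination smul_left_injective F hx0 h1) with h3 | h3
    · exact Or.inl (span_eq_of_eig T hs hx hx0 q₁ n₁ (sub_eq_zero.1 h3 ▸ hu) c₁)
    · exact Or.inr (span_eq_of_eig T hs hx hx0 q₂ n₂ (sub_eq_zero.1 h3 ▸ hu) c₂)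
  · rw [← smul_pt_eq_iff]
    rintro (h1 | h1) <;> rw [h1, smul_pt_eq_iff]
    exacts [mem_pst_of_eq n₁ c₁, mem_pst_of_eq n₂ c₂]

theorem adj (h2 : (2 : F) ≠ 0) (hH : H ≤ P.EG) {j : P.Iso} (hj : j ∈ H) (jv : j • v = v)
    (je : j • e = -e) (jf : j • f = -f) {g : P.Iso} (hg : g ∈ H) (hv : P.B (g • v) e = 0) :
    ∃ u ∈ H, u ∈ P.U e ∧ u * g ∈ P.pst v := by
  obtain ⟨X, Y, hY⟩ := fr_perp_e T hv
  have hY0 : Y ≠ 0 := fun h => by
    have := B_smul_smul g v v
    simp [hY, h, T.hyp.left.B_self, T.vv] at this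
  have h1 : (g * j * g⁻¹) • e = -e := by
    obtain ⟨a, b, hab⟩ := fr_perp_v T (x := g⁻¹ • e) (by rw [← B_act_right]; exact B_swap_zero hv)
    rw [mul_smul, mul_smul, show j • g⁻¹ • e = -(g⁻¹ • e) by
      rw [hab, smul_add, act_smul, act_smul, je, jf]; module, smul_neg, smul_inv_smul]
  have h3 : (g * j * g⁻¹) • g • v = g • v := by rw [mul_smul, inv_smul_smul, mul_smul, jv]
  have h4 := mul_mem (mul_mem (mul_mem hg hj) (inv_mem hg)) hj
  have h5 : -σ (2 * X / Y) ∈ Ws T H := mem_Ws_of T h4 (fr_mem_U T (det_of_mem (hH h4))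
    (by rw [mul_smul, je, smul_neg, h1, neg_neg])) (by
      rw [hY, smul_add, act_smul, act_smul, h1] at h3
      rw [mul_smul, jv, map_neg, frobq_frobq]
      refine smul_right_injective V hY0 ?_
      simp only
      rw [eq_sub_of_add_eq' h3]
      match_scalars
      · field_simp; ring
      · ring)
  obtain ⟨k, hk⟩ := Nat.not_even_iff_odd.1 (mt (even_q_iff hF).1 h2)
  have h6 : (2 * k + 1 : F) = 0 := by have := cast_q hF; rw [hk] at this; exact_mod_cast this
  obtain ⟨c, hc, h7⟩ := (mem_Ws T).1 (show σ (X / Y) ∈ Ws T H by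
    convert nsmul_mem h5 k using 1
    rw [nsmul_eq_mul, mul_div_assoc, map_mul, map_ofNat]
    linear_combination σ (X / Y) * h6)
  refine ⟨_, h7, eich_mem_U _ _ _, Y, hY0, ?_⟩
  rw [mul_smul, hY, smul_add, act_smul, act_smul, (T.oke hc).eich_smul_e, fr_eich_v T hc,
    frobq_frobq]
  match_scalars
  · field_simp; ring
  · ring

theorem W_bound (hH : H ≤ P.EG) (hD : P.Dv H T.hyp.left = ⊥) (hW : Ws T H ≠ ⊥) :
    Nat.card (Ws T H) ≤ q ∧ ∀ g ∈ H, ∀ t : F, t ≠ 0 → g • e = t • e → t ^ (3 * (q - 1)) = 1 := by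
  obtain ⟨a, ha, ha0⟩ := exists_ne_zero_of_ne_bot hW
  have hs : σ a ≠ 0 := by simpa using ha0
  have h1 : ∀ b ∈ Ws T H, σ (b / a) = b / a := fun b hb => by
    have := Ws_comm T ha hb
    rw [hD, AddSubgroup.mem_bot] at this
    rw [map_div₀]; field_simp; linear_combination -this
  refine ⟨?_, fun g hg t ht0 ht => ?_⟩
  · refine le_of_le_of_eq ?_ (card_fix hF)
    exact Nat.card_le_card_of_injective (fun b : Ws T H => ⟨b / a, h1 b b.2⟩) fun b c h =>
      Subtype.ext ((div_left_inj' ha0).1 (congrArg Subtype.val h))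
  · have h2 := h1 _ (Ws_mul T hH hg ht ha)
    have hst : σ t ≠ 0 := by simpa using ht0
    rw [mul_div_assoc, div_self ha0, mul_one, map_div₀, map_mul, frobq_frobq] at h2
    field_simp at h2
    obtain ⟨m, hm⟩ : ∃ m, q = m + 1 := ⟨q - 1, by have := two_le_q hF; omega⟩
    rw [frobq_apply, hm] at h2
    rw [hm, Nat.add_sub_cancel]
    exact mul_left_cancel₀ (pow_ne_zero 3 ht0) (by linear_combination -h2)

end Fr

theorem exists_invol_frame [FiniteDimensional F V] (hP : P.ND) (h3 : finrank F V = 3)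
    (h2 : (2 : F) ≠ 0) {j : P.Iso} (hj : j ∈ P.EG) (hjj : j * j = 1) (hj1 : j ≠ 1) :
    ∃ e v f, Fr3 P e v f ∧ j • v = v ∧ j • e = -e ∧ j • f = -f := by
  have h1 : ∀ u : V, j • (u + j • u) = u + j • u := fun u => by
    rw [smul_add, ← mul_smul, hjj, one_smul, add_comm]
  obtain ⟨y, hy0, hy⟩ : ∃ y : V, y ≠ 0 ∧ j • y = y := by_contra fun hn => by
    have h4 : ∀ u : V, j • u = (-1 : F) • u := fun u => by
      rw [neg_one_smul, ← add_eq_zero_iff_eq_neg']
      exact by_contra fun h => hn ⟨_, h, h1 u⟩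
    obtain ⟨e, v, f, T⟩ := exists_fr3 hP h3
    obtain ⟨-, b, hb⟩ := fr_act T (det_of_mem hj) (h4 e)
    have h5 := (fr_inj T (X := 0) (Y := -1) (W := 0) (X' := b) (Y' := σ (-1) / (-1)) (W' := 0)
      (by simpa [h4] using hb)).2.1
    exact h2 (by simp at h5; linear_combination -h5)
  obtain ⟨w, hw0, hw⟩ : ∃ w : V, P.B w w ≠ 0 ∧ j • w = w := by_contra fun hn => by
    have h4 : ∀ w : V, j • w = w → P.B w w = 0 := fun w hw => by_contra fun h => hn ⟨w, h, hw⟩
    obtain ⟨u, hu⟩ := hP.exists_eq hy0 2⁻¹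
    have h5 : P.B y (u + j • u) = 1 := by
      rw [map_add, ← hy, B_smul_smul, hy, hu, ← two_mul, mul_inv_cancel₀ h2]
    have h6 := h4 (y + (u + j • u)) (by rw [smul_add, hy, h1])
    rw [map_add, map_add P.B, LinearMap.add_apply, LinearMap.add_apply, h4 y hy, h4 _ (h1 u),
      u_swap y, h5, map_one] at h6
    exact h2 (by linear_combination h6)
  obtain ⟨c, -, hc⟩ := exists_norm_vec hw0
  obtain ⟨e, f, T⟩ := fr_of_v hP h3 hc
  have h4 : j • c • w = c • w := by rw [act_smul, hw]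
  exact ⟨e, _, f, T, h4, neg_of_invol h2 T hj h4 hjj hj1⟩

end Cfsg.Agent.U3
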