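import Cfsg.Agent.U3.Frame

/-! Subgroups of `SU₃(q)` that are transitive on the singular points. -/

set_option autoImplicit false

open Module MulAction

namespace Cfsg.Agent.U3

open Cfsg.Agent.Polar Cfsg.Agent.Polar.PQ Cfsg.Agent.Forms Cfsg.Agent.Forms.RegCl
open scoped Pointwise

variable {F : Type*} [Field F] [Fintype F] {q : ℕ} {hF : Fintype.card F = q ^ 2}
variable {V : Type*} [AddCommGroup V] [Module F V] {P : PQ (uFP hF) V}

local notation "σ" => frobq hF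

/-- The multipliers of `e`. -/
def TT (K : Subgroup P.Iso) (e : V) : Subgroup Fˣ where
  carrier := {t | ∃ g ∈ K, g • e = (t : F) • e}
  one_mem' := ⟨1, one_mem _, by simp⟩
  mul_mem' := by
    rintro s t ⟨g, hg, hs⟩ ⟨k, hk, ht⟩
    exact ⟨g * k, mul_mem hg hk, by rw [mul_smul, ht, act_smul, hs, smul_smul, mul_comm]; rfl⟩
  inv_mem' := by
    rintro t ⟨g, hg, ht⟩
    exact ⟨g⁻¹, inv_mem hg, by
      rw [inv_smul_eq_iff, act_smul, ht, smul_smul, Units.inv_mul, one_smul]⟩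

theorem card_TT_dvd {K : Subgroup P.Iso} {e : V} (he : e ≠ 0) {n : ℕ}
    (h : ∀ g ∈ K, ∀ t : F, t ≠ 0 → g • e = t • e → t ^ n = 1) : Nat.card (TT K e) ∣ n := by
  rw [← IsCyclic.exponent_eq_card]
  refine Monoid.exponent_dvd_of_forall_pow_eq_one ?_
  rintro ⟨t, g, hg, ht⟩
  have := he
  exact Subtype.ext (Units.ext (by simpa using h g hg t t.ne_zero ht))

theorem card_TT_dvd' (K : Subgroup P.Iso) (e : V) : Nat.card (TT K e) ∣ q ^ 2 - 1 := by
  rw [← u_card hF, ← Nat.card_units]; exact Subgroup.card_subgroup_dvd_card _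

section Fr

variable {e v f : V} (T : Fr3 P e v f)
include T

theorem card_pst [FiniteDimensional F V] {K : Subgroup P.Iso} (hK : K ≤ P.EG) :
    Nat.card (K ⊓ P.pst e : Subgroup P.Iso) =
      Nat.card (K ⊓ P.U e : Subgroup P.Iso) * Nat.card (TT K e) := by
  have h1 := relIndex_eq_ncard (P.U e) (K ⊓ P.pst e) (fun g => P.B (g • e) f) (by
    rintro g ⟨hg, s, -, hs⟩ k ⟨hk, t, -, ht⟩
    simp only [hs, ht, B_smul_left, T.hyp.pair, mul_one]
    refine ⟨fun h => fr_mem_U T (det_of_mem (hK (mul_mem (inv_mem hg) hk))) ?_, fun h => ?_⟩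
    · rw [mul_smul, inv_smul_eq_iff, hs, ht, h]
    · have h2 := h.1
      rw [mul_smul, inv_smul_eq_iff, hs, ht] at h2
      exact (smul_left_injective F T.hyp.left_ne_zero h2).symm)
  have h2 : (fun g : P.Iso => P.B (g • e) f) '' ((K ⊓ P.pst e : Subgroup P.Iso) : Set P.Iso) =
      Units.val '' (TT K e : Set Fˣ) := by
    ext x
    constructor
    · rintro ⟨g, ⟨hg, t, ht0, ht⟩, rfl⟩
      exact ⟨Units.mk0 t ht0, ⟨g, hg, ht⟩, by simp [ht, T.hyp.pair]⟩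
    · rintro ⟨t, ⟨g, hg, ht⟩, rfl⟩
      exact ⟨g, ⟨hg, t, t.ne_zero, ht⟩, by simp [ht, T.hyp.pair]⟩
  rw [h2, Set.ncard_image_of_injective _ Units.val_injective] at h1
  rw [← relIndex_mul_card (P.U e), h1, mul_comm, inf_comm, inf_assoc,
    inf_of_le_right (U_le_pst e)]
  rfl

/-- The vector parts. -/
def Ws (H : Subgroup P.Iso) : AddSubgroup F :=
  (T.hyp.Yv H).comap (LinearMap.toSpanSingleton F V v).toAddMonoidHom

theorem mem_Ws {H : Subgroup P.Iso} {a : F} :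
    a ∈ Ws T H ↔ ∃ c, c + σ c = a * σ a ∧ P.eich e (a • v) c ∈ H := by
  change a • v ∈ T.hyp.Yv H ↔ _
  rw [Hyp.mem_Yv]
  exact ⟨fun ⟨⟨c, hc, h⟩, _⟩ => ⟨c, by simpa [T.vv, mul_comm] using u_QEq_iff.1 hc.val, h⟩,
    fun ⟨c, hc, h⟩ => ⟨⟨c, T.oke hc, h⟩, mem_perp_pair.2 ⟨by simp [T.ve], by simp [T.vf]⟩⟩⟩

theorem card_U (H : Subgroup P.Iso) : Nat.card (H ⊓ P.U e : Subgroup P.Iso) =
    Nat.card (Ws T H) * Nat.card (P.Dv H T.hyp.left) := by
  rw [T.hyp.card_inf_U]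
  congr 1
  refine (Nat.card_congr (Equiv.ofBijective (fun a : Ws T H => (⟨a.1 • v, a.2⟩ : T.hyp.Yv H))
    ⟨fun a b h => Subtype.ext (smul_left_injective F (fr_vne T) (congrArg Subtype.val h)),
      fun x => ?_⟩)).symm
  obtain ⟨a, ha⟩ := T.span x (T.hyp.Yv_le H x.2)
  exact ⟨⟨a, by change a • v ∈ T.hyp.Yv H; rw [← ha]; exact x.2⟩, Subtype.ext ha.symm⟩

theorem mem_Ws_of {H : Subgroup P.Iso} {g : P.Iso} (hg : g ∈ H) (hU : g ∈ P.U e) {a : F}
    (ha : g • v = v - σ a • e) : a ∈ Ws T H := by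
  obtain ⟨b, c, hc, rfl⟩ := (fr_U_iff T).1 hU
  rw [fr_eich_v T hc, sub_right_inj] at ha
  rw [← (σ).injective (smul_left_injective F T.hyp.left_ne_zero ha)]
  exact (mem_Ws T).2 ⟨c, hc, hg⟩

theorem Ws_comm {H : Subgroup P.Iso} {a b : F} (ha : a ∈ Ws T H) (hb : b ∈ Ws T H) :
    b * σ a - a * σ b ∈ P.Dv H T.hyp.left := by
  obtain ⟨c, hc, ha⟩ := (mem_Ws T).1 ha
  obtain ⟨d, hd, hb⟩ := (mem_Ws T).1 hb
  have h1 := mul_mem (mul_mem (mul_mem ha hb) (inv_mem ha)) (inv_mem hb)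
  rw [eich_comm (T.oke hc) (T.oke hd)] at h1
  refine ⟨(mem_uFP_lam hF _).2 (by simp [frobq_frobq, mul_comm]), ?_⟩
  simpa [T.vv, mul_comm] using h1

theorem Ws_sq (h2 : (2 : F) = 0) {H : Subgroup P.Iso} {a : F} (ha : a ∈ Ws T H) :
    a * σ a ∈ P.Dv H T.hyp.left := by
  obtain ⟨c, hc, ha⟩ := (mem_Ws T).1 ha
  have h1 := mul_mem ha ha
  rw [(T.oke hc).eich_mul (T.oke hc), ← add_smul, ← two_mul, ← two_mul, h2] at h1
  refine ⟨(mem_uFP_lam hF _).2 (by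
    rw [map_mul, frobq_frobq]; linear_combination a * σ a * h2), ?_⟩
  simpa [T.vv, mul_comm] using h1

theorem Ws_mul [FiniteDimensional F V] {H : Subgroup P.Iso} (hH : H ≤ P.EG) {g : P.Iso}
    (hg : g ∈ H) {t : F} (ht : g • e = t • e) {a : F} (ha : a ∈ Ws T H) :
    σ t * σ t / t * a ∈ Ws T H := by
  obtain ⟨c, hc, ha⟩ := (mem_Ws T).1 ha
  obtain ⟨ht0, b, hb⟩ := fr_act T (det_of_mem (hH hg)) ht
  obtain ⟨-, b', hb'⟩ := fr_act T (det_of_mem (hH (inv_mem hg))) (t := t⁻¹)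
    (by rw [inv_smul_eq_iff, act_smul, ht, smul_smul, inv_mul_cancel₀ ht0, one_smul])
  have hs : σ t ≠ 0 := by simpa using ht0
  refine mem_Ws_of T (mul_mem (mul_mem hg ha) (inv_mem hg))
    (conj_mem_U_of_pst ⟨t, ht0, ht⟩ (eich_mem_U _ _ _)) ?_
  have h1 : g • g⁻¹ • v = v := smul_inv_smul g v
  rw [hb', smul_add, act_smul, act_smul] at h1
  rw [mul_smul, mul_smul, hb', smul_add, act_smul, act_smul, (T.oke hc).eich_smul_e,
    fr_eich_v T hc, smul_sub, ← add_sub_assoc, smul_sub, smul_add, act_smul, act_smul, h1,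
    act_smul, act_smul, ht, smul_smul, smul_smul]
  congr 2
  simp only [map_mul, map_div₀, map_inv₀, frobq_frobq]
  field_simp

omit T in
theorem D_conj {H : Subgroup P.Iso} {x y : V} (hx : P.Sing x) (hy : P.Sing y) {g : P.Iso}
    (hg : g ∈ H) {t : F} (ht : g • x = t • y) {c : F} (hc : c ∈ P.Dv H hx) :
    t * σ t * c ∈ P.Dv H hy := by
  refine ⟨(uFP hF).lam_smul t c hc.1, ?_⟩
  have h1 := mul_mem (mul_mem hg hc.2) (inv_mem hg)
  rwa [(EOk.lam hx hc.1).conj_eich, smul_zero, ht, (EOk.lam hy hc.1).eich_smul_left,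
    smul_zero] at h1

end Fr

theorem card_orbit_mul (K : Subgroup P.Iso) (x : V) :
    Nat.card K = (orbit K (F ∙ x)).ncard * Nat.card (K ⊓ P.pst x : Subgroup P.Iso) := by
  rw [← relIndex_mul_card (P.pst x) K, inf_comm, ← index_stabilizer, Subgroup.relIndex]
  congr 2
  ext g
  exact smul_pt_eq_iff.symm

theorem card_stab (K : Subgroup P.Iso) (x : V) :
    Nat.card (stabilizer K (F ∙ x)) = Nat.card (K ⊓ P.pst x : Subgroup P.Iso) := by
  rw [show stabilizer K (F ∙ x) = (P.pst x).subgroupOf K from Subgroup.ext fun g => smul_pt_eq_iff,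
    ← Subgroup.inf_subgroupOf_left, Nat.card_congr (Subgroup.subgroupOfEquivOfLe inf_le_left).toEquiv]

variable (P) in
/-- A subgroup of `SU₃(q)` transitive on the singular points. -/
structure Hy (H : Subgroup P.Iso) : Prop where
  nd : P.ND
  fin : finrank F V = 3
  le : H ≤ P.EG
  tr : ∀ x y, P.Sing x → x ≠ 0 → P.Sing y → y ≠ 0 → ∃ g ∈ H, ∃ t : F, t ≠ 0 ∧ g • x = t • y

instance finite_submodule [Finite V] : Finite (Submodule F V) :=
  Finite.of_injective _ SetLike.coe_injective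

variable [Finite V] [FiniteDimensional F V] {H : Subgroup P.Iso}

omit [FiniteDimensional F V] in
theorem Hy.card_eq (h : Hy P H) {e : V} (he : P.Sing e) (h0 : e ≠ 0) :
    Nat.card H = (q ^ 3 + 1) * Nat.card (H ⊓ P.pst e : Subgroup P.Iso) := by
  rw [card_orbit_mul H e, ← card_pts h.nd h.fin]
  congr 2
  ext p
  constructor
  · rintro ⟨g, rfl⟩
    exact smul_mem_pts (act_mem_sing0 g) _ (mem_pts ⟨trivial, h0, he⟩)
  · rintro ⟨x, hx, rfl⟩
    obtain ⟨g, hg, ht⟩ := h.tr e x he h0 hx.2.2 hx.2.1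
    exact ⟨⟨g, hg⟩, (smul_pt g e).trans (span_eq_iff'.2 ht)⟩

omit [Finite V] in
theorem hy_EG (hP : P.ND) (h3 : finrank F V = 3) : Hy P P.EG :=
  ⟨hP, h3, le_rfl, fun _ _ hx hx0 hy hy0 => by
    obtain ⟨t, ht, g, hg, h⟩ := hP.exists_EG_point u_rich hx hy hx0 hy0
    exact ⟨g, hg, t, ht, h⟩⟩

omit [FiniteDimensional F V] in
theorem card_U_eq {e v f : V} (T : Fr3 P e v f) (h3 : finrank F V = 3) :
    Nat.card (P.U e) = q ^ 3 := by
  rw [T.hyp.card_U, T.hyp.u_card_perp (d := 1) h3, card_lam]; ring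

theorem card_EG (hP : P.ND) (h3 : finrank F V = 3) :
    Nat.card P.EG = (q ^ 3 + 1) * (q ^ 3 * (q ^ 2 - 1)) := by
  obtain ⟨e, v, f, T⟩ := exists_fr3 hP h3
  rw [(hy_EG hP h3).card_eq T.hyp.left T.hyp.left_ne_zero, card_pst T le_rfl,
    inf_of_le_right T.hyp.U_le_EG, card_U_eq T h3, show TT P.EG e = ⊤ from
      eq_top_iff.2 fun t _ => u_vTrans hP h3.ge _ _ T.hyp.left (T.hyp.left.smul _)
        T.hyp.left_ne_zero (smul_ne_zero t.ne_zero T.hyp.left_ne_zero),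
    Subgroup.card_top, Nat.card_units, u_card hF]

theorem Hy.index (h : Hy P H) {e : V} (he : P.Sing e) (h0 : e ≠ 0) :
    H.relIndex P.EG * Nat.card (H ⊓ P.pst e : Subgroup P.Iso) = q ^ 3 * (q ^ 2 - 1) := by
  have h1 := relIndex_mul_card H P.EG
  rw [card_EG h.nd h.fin, inf_of_le_left h.le, h.card_eq he h0] at h1
  exact Nat.eq_of_mul_eq_mul_left (Nat.add_one_pos (q ^ 3)) (by rw [← h1]; ring)

theorem hy_of_index (hP : P.ND) (h3 : finrank F V = 3) (hH : H ≤ P.EG)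
    (hi : H.relIndex P.EG ≤ q ^ 3) : Hy P H := by
  let X : SubMulAction P.EG (Submodule F V) :=
    ⟨pts F (P.sing0 Set.univ), fun g _ hp => smul_mem_pts (act_mem_sing0 g) _ hp⟩
  have hX : Nat.card X = q ^ 3 + 1 := card_pts hP h3
  have hq : 0 < q ^ 3 := pow_pos (by have := two_le_q hF; omega) 3
  have : Nontrivial X := Finite.one_lt_card_iff_nontrivial.1 (by omega)
  have : IsMultiplyPretransitive P.EG X 2 := by
    rw [is_two_pretransitive_iff]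
    rintro ⟨_, a, ha, rfl⟩ ⟨_, b, hb, rfl⟩ ⟨_, c, hc, rfl⟩ ⟨_, d, hd, rfl⟩ hab hcd
    have h1 : P.B a b ≠ 0 := fun h =>
      hab (Subtype.ext (span_eq_of_perp hP h3 hb.2.2 hb.2.1 ha.2.2 ha.2.1 h))
    have h2 : P.B c d ≠ 0 := fun h =>
      hcd (Subtype.ext (span_eq_of_perp hP h3 hd.2.2 hd.2.1 hc.2.2 hc.2.1 h))
    obtain ⟨g, hg, h4, h5⟩ := (u_vTrans hP h3.ge).exists_hyp (hyp_of_ne ha.2.2 hb.2.2 h1)
      (hyp_of_ne hc.2.2 hd.2.2 h2)
    refine ⟨⟨g, hg⟩, Subtype.ext ((smul_pt g a).trans (by rw [h4])),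
      Subtype.ext ((smul_pt g b).trans (span_eq_iff'.2 ⟨σ (P.B a b) * σ (P.B c d)⁻¹,
        by simp [h1, h2], ?_⟩))⟩
    rw [mul_smul, ← h5, act_smul, smul_smul, ← map_mul, mul_inv_cancel₀ h1, map_one, one_smul]
  have h4 := trans_of_index (X := X) (H.subgroupOf P.EG) (by rw [hX]; exact Nat.lt_succ_of_le hi)
  refine ⟨hP, h3, hH, fun x y hx hx0 hy hy0 => ?_⟩
  obtain ⟨g, hg⟩ := h4.exists_smul_eq ⟨_, mem_pts ⟨trivial, hx0, hx⟩⟩ ⟨_, mem_pts ⟨trivial, hy0, hy⟩⟩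
  exact ⟨g.1.1, g.2, span_eq_iff'.1 ((smul_pt _ x).symm.trans (congrArg Subtype.val hg))⟩

omit [Finite V] [FiniteDimensional F V] in
theorem Hy.of_U (h : Hy P H) {e : V} (he : P.Sing e) (h0 : e ≠ 0) (hU : P.U e ≤ H) :
    P.EG ≤ H := EG_le fun x w c hx hx0 => by
  obtain ⟨g, hg, t, ht, hgt⟩ := h.tr e x he h0 hx.sing hx0
  have h1 := U_le_of_smul hU hg
  rw [hgt, U_smul ht] at h1
  exact h1 (eich_mem_U _ _ _)

omit [Finite V] in
theorem Hy.gen (h : Hy P H) {e v f : V} (T : Fr3 P e v f) {l : F} (hl : l ≠ 1)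
    (hh : ∀ a : F, ∃ g ∈ H, g • e = l • e ∧ g • (v - a • e) = v - a • e) : P.EG ≤ H := by
  have hW : ∀ a, a ∈ Ws T H := fun a => by
    obtain ⟨g, hg, h1, h2⟩ := hh (σ a / (1 - l))
    obtain ⟨k, hk, h3, h4⟩ := hh 0
    rw [zero_smul, sub_zero] at h4
    have h5 := mul_mem hg (inv_mem hk)
    refine mem_Ws_of T h5 (fr_mem_U T (det_of_mem (h.le h5)) ?_) ?_
    · have hl0 := (fr_act T (det_of_mem (h.le hk)) h3).1
      rw [mul_smul, show k⁻¹ • e = l⁻¹ • e by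
        rw [inv_smul_eq_iff, act_smul, h3, smul_smul, inv_mul_cancel₀ hl0, one_smul], act_smul, h1,
        smul_smul, inv_mul_cancel₀ hl0, one_smul]
    · rw [smul_sub, act_smul, h1, sub_eq_iff_eq_add] at h2
      rw [mul_smul, inv_smul_eq_iff.2 h4.symm, h2]
      have := sub_ne_zero.2 hl.symm
      match_scalars
      · rfl
      · field_simp; ring
  refine h.of_U T.hyp.left T.hyp.left_ne_zero (T.hyp.U_le_of_vecs (fun c hc => ?_) fun w hw => ?_)
  · obtain ⟨b, rfl⟩ := u_hmin c hc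
    simpa using (Ws_comm T (hW 1) (hW b)).2
  · obtain ⟨a, rfl⟩ := T.span w hw
    exact (T.hyp.mem_Yv.1 (hW a)).1

end Cfsg.Agent.U3
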